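import Mathlib

/-!
Groups of semilinear type over an extension field of prime degree: transvections and dilations.
-/

set_option autoImplicit false
set_option linter.style.haveILetI false
set_option linter.unusedSectionVars false

namespace Cfsg.Agent.MaxSub.ExtField

open Module

variable {F K V : Type*} [Field F] [Field K] [Algebra F K] [AddCommGroup V] [Module F V] [Module K V]
  [IsScalarTower F K V]

/-- `1 + f` belongs to `G`. -/
def Mem (G : Subgroup (V ≃ₗ[F] V)) (f : V →ₗ[F] V) : Prop := ∃ g ∈ G, ∀ x, g x = x + f x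

/-- The rank-one map `x ↦ φ x • y`. -/
abbrev rk1 (φ : V →ₗ[F] F) (y : V) : V →ₗ[F] V := φ.smulRight y

/-- `G` contains the `K`-linear maps of determinant of norm one. -/
def HasSL (K : Type*) [Field K] [Algebra F K] [Module K V] [IsScalarTower F K V]
    (G : Subgroup (V ≃ₗ[F] V)) : Prop :=
  ∀ s : V ≃ₗ[K] V, Algebra.norm F (LinearEquiv.det s : K) = 1 → s.restrictScalars F ∈ G

variable {G : Subgroup (V ≃ₗ[F] V)}

theorem Mem.congr {f f' : V →ₗ[F] V} (h : Mem G f) (he : ∀ x, f x = f' x) : Mem G f' := by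
  obtain ⟨g, hg, hgx⟩ := h
  exact ⟨g, hg, fun x => by rw [hgx, he]⟩

theorem mem_zero : Mem G (0 : V →ₗ[F] V) := ⟨1, G.one_mem, fun x => by simp⟩

theorem Mem.add {f f' : V →ₗ[F] V} (h : Mem G f) (h' : Mem G f') (hff : ∀ x, f (f' x) = 0) :
    Mem G (f + f') := by
  obtain ⟨g, hg, hgx⟩ := h
  obtain ⟨g', hg', hgx'⟩ := h'
  refine ⟨g * g', G.mul_mem hg hg', fun x => ?_⟩
  simp only [LinearEquiv.mul_apply, hgx', map_add, hgx, hff, LinearMap.add_apply]
  abel

theorem inv_apply_self (g : V ≃ₗ[F] V) (x : V) : g⁻¹ (g x) = x := by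
  rw [← LinearEquiv.mul_apply, inv_mul_cancel]; rfl

theorem self_inv_apply (g : V ≃ₗ[F] V) (x : V) : g (g⁻¹ x) = x := by
  rw [← LinearEquiv.mul_apply, mul_inv_cancel]; rfl

theorem Mem.neg {f : V →ₗ[F] V} (h : Mem G f) (hff : ∀ x, f (f x) = 0) : Mem G (-f) := by
  obtain ⟨g, hg, hgx⟩ := h
  refine ⟨g⁻¹, G.inv_mem hg, fun x => g.injective ?_⟩
  rw [self_inv_apply, map_add, hgx, hgx, LinearMap.neg_apply, map_neg, hff]
  abel

/-- Conjugation. -/
theorem Mem.conj {f : V →ₗ[F] V} (h : Mem G f) {g : V ≃ₗ[F] V} (hg : g ∈ G) :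
    Mem G (g.toLinearMap ∘ₗ f ∘ₗ (g⁻¹ : V ≃ₗ[F] V).toLinearMap) := by
  obtain ⟨g', hg', hgx'⟩ := h
  refine ⟨g * g' * g⁻¹, G.mul_mem (G.mul_mem hg hg') (G.inv_mem hg), fun x => ?_⟩
  simp [LinearEquiv.mul_apply, hgx', self_inv_apply]

section SL

variable (hSL : HasSL K G) [FiniteDimensional K V]
include hSL

theorem mem_elation (v : V) (Φ : V →ₗ[K] K) (h : Φ v = 0) :
    Mem G ((Φ.smulRight v).restrictScalars F) :=
  ⟨(LinearEquiv.transvection h).restrictScalars F,
    hSL _ (by rw [LinearEquiv.transvection.det_eq_one h, Units.val_one, map_one]), fun x => rfl⟩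

/-- A dilation of norm one. -/
theorem exists_dilation [FiniteDimensional F K] (v : V) (Φ : V →ₗ[K] K) (h : Φ v = 1) (ν : K) (hν : Algebra.norm F ν = 1) :
    ∃ g ∈ G, ∀ x : V, g x = x + ((ν - 1) * Φ x) • v ∧ g⁻¹ x = x + ((ν⁻¹ - 1) * Φ x) • v := by
  have hν0 : ν ≠ 0 := fun h0 => by simp [h0] at hν
  let T : K → V →ₗ[K] V := fun c => LinearMap.transvection Φ ((c - 1) • v)
  have hT : ∀ c x, T c x = x + ((c - 1) * Φ x) • v := fun c x => by
    simp only [T, LinearMap.transvection.apply, smul_smul]; rw [mul_comm]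
  have hcomp : ∀ c c', c * c' = 1 → ∀ x, T c (T c' x) = x := fun c c' hc x => by
    rw [hT, hT, map_add, map_smul, h, smul_eq_mul, mul_one, add_assoc, ← add_smul,
      show (c' - 1) * Φ x + (c - 1) * (Φ x + (c' - 1) * Φ x) = (c * c' - 1) * Φ x by ring, hc, sub_self, zero_mul,
      zero_smul, add_zero]
  let s : V ≃ₗ[K] V := LinearEquiv.ofLinearMap (T ν) (T ν⁻¹) (LinearMap.ext (hcomp ν ν⁻¹ (mul_inv_cancel₀ hν0)))
    (LinearMap.ext (hcomp ν⁻¹ ν (inv_mul_cancel₀ hν0)))
  have hdet : (LinearEquiv.det s : K) = ν := by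
    rw [LinearEquiv.coe_det]
    show LinearMap.det (T ν) = ν
    rw [LinearMap.transvection.det, map_smul, h, smul_eq_mul, mul_one, add_sub_cancel]
  refine ⟨s.restrictScalars F, hSL s (by rw [hdet, hν]), fun x => ⟨hT ν x, ?_⟩⟩
  apply (s.restrictScalars F).injective
  rw [self_inv_apply]
  show x = T ν (x + ((ν⁻¹ - 1) * Φ x) • v)
  rw [← hT, hcomp ν ν⁻¹ (mul_inv_cancel₀ hν0)]

end SL

/-- An additive subgroup containing `1` and closed under the elements of norm one is everything. -/
theorem addSubgroup_eq_top [Finite K] {r : ℕ} (hr : finrank F K = r) (hr2 : 2 ≤ r) (S : AddSubgroup K)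
    (h1 : (1 : K) ∈ S) (hmul : ∀ ν, Algebra.norm F ν = 1 → ∀ s ∈ S, ν * s ∈ S) : S = ⊤ := by
  classical
  haveI : Finite F := Finite.of_injective _ (algebraMap F K).injective
  haveI : FiniteDimensional F K := Module.finite_of_finrank_pos (by omega)
  haveI := Fintype.ofFinite F
  haveI := Fintype.ofFinite K
  let R : Subfield K :=
    { carrier := {c | ∀ s ∈ S, c * s ∈ S}
      mul_mem' := fun {a b} ha hb s hs => by rw [mul_assoc]; exact ha _ (hb s hs)
      one_mem' := fun s hs => by rwa [one_mul]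
      add_mem' := fun {a b} ha hb s hs => by rw [add_mul]; exact S.add_mem (ha s hs) (hb s hs)
      zero_mem' := fun s hs => by rw [zero_mul]; exact S.zero_mem
      neg_mem' := fun {a} ha s hs => by rw [neg_mul]; exact S.neg_mem (ha s hs)
      inv_mem' := fun a ha s hs => by
        by_cases h0 : a = 0
        · simp [h0, S.zero_mem]
        have hinj : Function.Injective (fun x : S => (⟨a * x.1, ha x.1 x.2⟩ : S)) := fun x y e =>
          Subtype.ext (mul_left_cancel₀ h0 (congrArg Subtype.val e))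
        obtain ⟨⟨t, ht⟩, he⟩ := Finite.surjective_of_injective hinj ⟨s, hs⟩
        have : a * t = s := congrArg Subtype.val he
        rwa [← this, inv_mul_cancel_left₀ h0] }
  have hker : ∀ u : Kˣ, u ∈ (Units.map (Algebra.norm F (S := K))).ker → (u : K) ∈ R := fun u hu s hs =>
    hmul u (congrArg Units.val hu) s hs
  have hcard : Fintype.card K = Fintype.card F ^ r := hr ▸ Module.card_eq_pow_finrank
  set q := Fintype.card F with hq
  have hq2 : 1 < q := Fintype.one_lt_card
  have hkercard : (q - 1) * Nat.card (Units.map (Algebra.norm F (S := K))).ker = q ^ r - 1 := by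
    have h2 := (Units.map (Algebra.norm F (S := K))).ker.index_mul_card
    rw [Subgroup.index_ker, MonoidHom.range_eq_top.mpr (FiniteField.unitsMap_norm_surjective F K),
      Subgroup.card_top, Nat.card_units, Nat.card_units, Nat.card_eq_fintype_card (α := F),
      Nat.card_eq_fintype_card (α := K), hcard] at h2
    exact h2
  have hR : R = ⊤ := by
    by_contra hne
    have hlow : Nat.card (Units.map (Algebra.norm F (S := K))).ker + 1 ≤ Nat.card R := by
      let f : Option (Units.map (Algebra.norm F (S := K))).ker → R := fun o =>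
        o.elim ⟨0, R.zero_mem⟩ (fun u => ⟨(u.1 : K), hker u.1 u.2⟩)
      have hinj : Function.Injective f := by
        rintro (_ | a) (_ | b) e <;> simp only [f, Option.elim, Subtype.mk.injEq] at e
        · rfl
        · exact absurd e.symm b.1.ne_zero
        · exact absurd e a.1.ne_zero
        · rw [Subtype.ext (Units.ext e)]
      have := Nat.card_le_card_of_injective f hinj
      rwa [Finite.card_option] at this
    have hup : Nat.card R ^ 2 ≤ q ^ r := by
      haveI : FiniteDimensional R K := inferInstance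
      have h2 := Module.natCard_eq_pow_finrank (K := R) (V := K)
      rw [Nat.card_eq_fintype_card (α := K), hcard] at h2
      rw [h2]
      refine Nat.pow_le_pow_right Nat.card_pos ?_
      by_contra hlt
      have hpos : 0 < finrank R K := finrank_pos
      apply hne
      rw [eq_top_iff]
      intro x _
      obtain ⟨c, hc⟩ := (finrank_eq_one_iff_of_nonzero' (1 : K) one_ne_zero).mp (by omega : finrank R K = 1) x
      rw [← hc, show c • (1 : K) = (c : K) * 1 from rfl, mul_one]
      exact c.2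
    set k := Nat.card (Units.map (Algebra.norm F (S := K))).ker
    have hk : q ^ (r - 1) ≤ k := by
      by_contra hlt
      have h3 : (q - 1) * (k + 1) ≤ (q - 1) * q ^ (r - 1) := Nat.mul_le_mul_left _ (by omega)
      have h4 : q ^ r = q ^ (r - 1) * q := by rw [← pow_succ]; congr 1; omega
      have h5 : q ^ 1 ≤ q ^ (r - 1) := Nat.pow_le_pow_right (by omega) (by omega)
      rw [pow_one] at h5
      rw [Nat.mul_succ, hkercard, Nat.sub_mul, one_mul, mul_comm q] at h3
      omega
    have h6 : (q ^ (r - 1) + 1) ^ 2 ≤ q ^ r := le_trans (Nat.pow_le_pow_left (by omega) 2) hup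
    have h7 : q ^ r ≤ (q ^ (r - 1)) ^ 2 := by rw [← pow_mul]; exact Nat.pow_le_pow_right (by omega) (by omega)
    rw [add_sq, one_pow] at h6
    omega
  rw [eq_top_iff]
  intro c _
  simpa using (show c ∈ R by rw [hR]; trivial) 1 h1

theorem exists_norm_one_functional [Finite K] {r : ℕ} (hr : finrank F K = r) (hr2 : 2 ≤ r) (χ : K →+ F)
    (hχ : χ ≠ 0) : ∃ ν, Algebra.norm F ν = 1 ∧ χ ν ≠ 0 := by
  by_contra hc
  push Not at hc
  let S : AddSubgroup K := AddSubgroup.closure {ν : K | Algebra.norm F ν = 1}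
  have hmul : ∀ ν, Algebra.norm F ν = 1 → ∀ s ∈ S, ν * s ∈ S := fun ν hν s hs => by
    induction hs using AddSubgroup.closure_induction with
    | mem x hx => exact AddSubgroup.subset_closure (by simp [hν, show Algebra.norm F x = 1 from hx])
    | zero => rw [mul_zero]; exact S.zero_mem
    | add x y _ _ hx hy => rw [mul_add]; exact S.add_mem hx hy
    | neg x _ hx => rw [mul_neg]; exact S.neg_mem hx
  have htop := addSubgroup_eq_top hr hr2 S (AddSubgroup.subset_closure (map_one _)) hmul
  apply hχ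
  ext c
  have hle : S ≤ χ.ker := (AddSubgroup.closure_le _).mpr fun ν hν => hc ν hν
  exact hle (htop ▸ AddSubgroup.mem_top c)

end Cfsg.Agent.MaxSub.ExtField
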