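import Cfsg.Agent.MaxSub.ExtField.Transvec

/-!
One transvection with centre and axis on a line generates all transvections.
-/

set_option autoImplicit false
set_option linter.style.haveILetI false
set_option linter.unusedSectionVars false

namespace Cfsg.Agent.MaxSub.ExtField

open Module

variable {F K V : Type*} [Field F] [Field K] [Algebra F K] [AddCommGroup V] [Module F V] [Module K V]
  [IsScalarTower F K V] {G : Subgroup (V ≃ₗ[F] V)}

/-- `μ = e₀ ∘ Φ`. -/
theorem exists_klift [FiniteDimensional F V] [FiniteDimensional F K] [FiniteDimensional K V]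
    (e₀ : K →ₗ[F] F) (he : e₀ ≠ 0) (μ : V →ₗ[F] F) :
    ∃ Φ : V →ₗ[K] K, ∀ x, μ x = e₀ (Φ x) := by
  let Θ : (V →ₗ[K] K) →ₗ[F] (V →ₗ[F] F) :=
    { toFun := fun Φ => e₀ ∘ₗ Φ.restrictScalars F
      map_add' := fun Φ Ψ => LinearMap.ext fun x => by simp
      map_smul' := fun c Φ => LinearMap.ext fun x => by simp }
  have hinj : Function.Injective Θ := by
    intro Φ Ψ h
    ext x
    by_contra hne
    obtain ⟨c, hc⟩ : ∃ c, e₀ c ≠ 0 := by
      by_contra hall
      push Not at hall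
      exact he (LinearMap.ext hall)
    apply hc
    have h1 := LinearMap.congr_fun h ((c / (Φ x - Ψ x)) • x)
    simp only [Θ, LinearMap.coe_mk, AddHom.coe_mk, LinearMap.comp_apply, LinearMap.restrictScalars_apply,
      map_smul, smul_eq_mul] at h1
    rw [← sub_eq_zero, ← map_sub, ← mul_sub, div_mul_cancel₀ _ (sub_ne_zero.mpr hne)] at h1
    exact h1
  haveI : FiniteDimensional F (V →ₗ[K] K) := FiniteDimensional.of_injective Θ hinj
  have hdim : finrank F (V →ₗ[K] K) = finrank F (V →ₗ[F] F) := by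
    rw [← Module.finrank_mul_finrank F K (V →ₗ[K] K), Subspace.dual_finrank_eq, Subspace.dual_finrank_eq,
      Module.finrank_mul_finrank]
  obtain ⟨Φ, hΦ⟩ := (LinearMap.injective_iff_surjective_of_finrank_eq_finrank hdim).mp hinj μ
  exact ⟨Φ, fun x => (LinearMap.congr_fun hΦ x).symm⟩

theorem klift_kill {e₀ : K →ₗ[F] F} (he : e₀ ≠ 0) {Φ : V →ₗ[K] K} {μ : V →ₗ[F] F}
    (h : ∀ x, μ x = e₀ (Φ x)) {y : V} (hy : ∀ x ∈ kline F K y, μ x = 0) : Φ y = 0 := by
  by_contra hne
  apply he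
  ext c
  have := hy ((c / Φ y) • y) (smul_mem_kline (self_mem_kline y) _)
  rwa [h, map_smul, smul_eq_mul, div_mul_cancel₀ _ hne] at this

/-- All transvections with centre in the line of `v` and axis containing it. -/
def FullAt (K : Type*) [Field K] [Algebra F K] [Module K V] [IsScalarTower F K V]
    (G : Subgroup (V ≃ₗ[F] V)) (v : V) : Prop :=
  ∀ μ : V →ₗ[F] F, (∀ x ∈ kline F K v, μ x = 0) → ∀ y ∈ kline F K v, Mem G (rk1 μ y)

variable [FiniteDimensional F V] [FiniteDimensional F K] [FiniteDimensional K V] [Finite K]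

theorem fullAt_of_hasLineTransvec {r : ℕ} (hr : finrank F K = r) (hr2 : 2 ≤ r) (hSL : HasSL K G)
    (h : HasLineTransvec K G) : ∃ v : V, v ≠ 0 ∧ FullAt K G v := by
  classical
  obtain ⟨v, y, φ, hv, hy, hy0, hφ, hφv, hmem⟩ := h
  obtain ⟨e₀, he⟩ : ∃ e₀ : K →ₗ[F] F, e₀ ≠ 0 := by
    obtain ⟨e₀, h0⟩ := exists_dual_eq_one_aux (K := F) (W := K) one_ne_zero
    exact ⟨e₀, fun h => by simp [h] at h0⟩
  obtain ⟨Φ₁, hΦ₁⟩ := exists_klift e₀ he φ
  have hΦ₁v : Φ₁ v = 0 := klift_kill he hΦ₁ hφv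
  have hΦ₁0 : Φ₁ ≠ 0 := fun h0 => hφ (LinearMap.ext fun x => by simp [hΦ₁, h0])
  let T : (V →ₗ[K] K) → V → Prop := fun Φ z => Mem G (rk1 (e₀ ∘ₗ Φ.restrictScalars F) z)
  have hkill : ∀ Φ : V →ₗ[K] K, Φ v = 0 → ∀ x ∈ kline F K v, Φ x = 0 := fun Φ hΦ x hx => by
    obtain ⟨c, rfl⟩ := mem_kline.mp hx
    rw [map_smul, hΦ, smul_zero]
  have hT : T Φ₁ y := hmem.congr fun x => by simp [hΦ₁]
  -- all centres in the line
  have hcentre : ∀ Φ : V →ₗ[K] K, Φ v = 0 → T Φ y → ∀ z ∈ kline F K v, T Φ z := by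
    intro Φ hΦ hΦy
    obtain ⟨b, rfl⟩ := mem_kline.mp hy
    have hb : b ≠ 0 := fun h => hy0 (by rw [h, zero_smul])
    let S : AddSubgroup K :=
      { carrier := {c | T Φ ((c * b) • v)}
        zero_mem' := by
          show T Φ _
          exact mem_zero.congr fun x => by simp
        add_mem' := fun {c c'} hc hc' => by
          refine (Mem.add hc hc' fun x => ?_).congr fun x => ?_
          · simp [hΦ]
          · simp [add_mul, add_smul, smul_add]
        neg_mem' := fun {c} hc => by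
          refine (Mem.neg hc fun x => ?_).congr fun x => ?_
          · simp [hΦ]
          · simp [smul_neg] }
    obtain ⟨Φ₂, hΦ₂⟩ := exists_dual_eq_one_aux (K := K) hv
    have htop := addSubgroup_eq_top hr hr2 S (by show T Φ _; rwa [one_mul]) fun ν hν c hc => by
      obtain ⟨g, hg, hgx⟩ := exists_dilation hSL v Φ₂ hΦ₂ ν hν
      refine (Mem.conj hc hg).congr fun x => ?_
      show g (e₀ (Φ (g⁻¹ x)) • ((c * b) • v)) = e₀ (Φ x) • ((ν * c * b) • v)
      rw [(hgx x).2, map_add, hkill Φ hΦ _ (smul_mem_kline (self_mem_kline v) _), add_zero, map_smul, (hgx _).1,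
        LinearMap.map_smul Φ₂, hΦ₂, smul_eq_mul, mul_one, ← add_smul]
      congr 2
      ring
    intro z hz
    obtain ⟨c, rfl⟩ := mem_kline.mp hz
    have : (c / b) ∈ S := htop ▸ AddSubgroup.mem_top _
    show T Φ _
    have h2 : T Φ ((c / b * b) • v) := this
    rwa [div_mul_cancel₀ _ hb] at h2
  -- multiples of `Φ₁`
  have hscale : ∀ c : K, T (c • Φ₁) y := by
    obtain ⟨w₁, hw₁⟩ : ∃ w, Φ₁ w ≠ 0 := by
      by_contra hall
      push Not at hall
      exact hΦ₁0 (LinearMap.ext hall)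
    set w := (Φ₁ w₁)⁻¹ • w₁ with hwdef
    have hw : Φ₁ w = 1 := by rw [hwdef, map_smul, smul_eq_mul, inv_mul_cancel₀ hw₁]
    let S : AddSubgroup K :=
      { carrier := {c | T (c • Φ₁) y}
        zero_mem' := by
          show T _ y
          exact mem_zero.congr fun x => by simp
        add_mem' := fun {c c'} hc hc' => by
          refine (Mem.add hc hc' fun x => ?_).congr fun x => ?_
          · simp [hkill Φ₁ hΦ₁v y hy]
          · simp [add_mul, add_smul]
        neg_mem' := fun {c} hc => by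
          refine (Mem.neg hc fun x => ?_).congr fun x => ?_
          · simp [hkill Φ₁ hΦ₁v y hy]
          · simp [neg_smul] }
    have htop := addSubgroup_eq_top hr hr2 S (by show T _ y; rwa [one_smul]) fun ν hν c hc => by
      have hν0 : ν ≠ 0 := fun h0 => by simp [h0] at hν
      have hνi : Algebra.norm F ν⁻¹ = 1 := by
        have h5 : Algebra.norm F ν⁻¹ * Algebra.norm F ν = 1 := by rw [← map_mul, inv_mul_cancel₀ hν0, map_one]
        rwa [hν, mul_one] at h5
      obtain ⟨g, hg, hgx⟩ := exists_dilation hSL w Φ₁ hw ν⁻¹ hνi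
      refine (Mem.conj hc hg).congr fun x => ?_
      show g (e₀ (c • Φ₁ (g⁻¹ x)) • y) = e₀ ((ν * c) • Φ₁ x) • y
      rw [(hgx x).2, g.map_smul, (hgx y).1, hkill Φ₁ hΦ₁v y hy, mul_zero, zero_smul,
        add_zero, map_add, LinearMap.map_smul Φ₁, hw, inv_inv]
      congr 2
      simp only [smul_eq_mul, mul_one]
      ring
    intro c
    exact (htop ▸ AddSubgroup.mem_top c : c ∈ S)
  -- all axes
  have haxis : ∀ Φ : V →ₗ[K] K, Φ v = 0 → T Φ y := by
    intro Φ hΦ
    by_cases hex : ∃ w, Φ w = 0 ∧ Φ₁ w ≠ 0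
    · obtain ⟨w', hw'0, hw'1⟩ := hex
      set w := (Φ₁ w')⁻¹ • w' with hwdef
      have hw1 : Φ₁ w = 1 := by rw [hwdef, map_smul, smul_eq_mul, inv_mul_cancel₀ hw'1]
      have hw0 : Φ w = 0 := by rw [hwdef, map_smul, hw'0, smul_zero]
      obtain ⟨g, hg, hgx⟩ := mem_elation hSL w Φ hw0
      have hginv : ∀ x, g.symm x = x - Φ x • w := fun x => g.injective (by
        rw [LinearEquiv.apply_symm_apply, hgx]
        simp [hw0])
      have h2 : Mem G (-(rk1 (e₀ ∘ₗ Φ₁.restrictScalars F) y)) :=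
        hT.neg fun x => by simp [hkill Φ₁ hΦ₁v y hy]
      have h3 := Mem.add (hT.conj hg) h2 fun x => by
        simp [hginv, hkill Φ₁ hΦ₁v y hy, hkill Φ hΦ y hy]
      refine (h3.neg fun x => ?_).congr fun x => ?_
      · simp [hginv, hgx, hkill Φ₁ hΦ₁v y hy, hkill Φ hΦ y hy]
      · simp [hginv, hgx, hw1, hkill Φ hΦ y hy, sub_smul]
    · push Not at hex
      by_cases hΦ0 : Φ = 0
      · exact mem_zero.congr fun x => by simp [hΦ0]
      obtain ⟨z', hz'⟩ : ∃ z, Φ z ≠ 0 := by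
        by_contra hall
        push Not at hall
        exact hΦ0 (LinearMap.ext hall)
      set z := (Φ z')⁻¹ • z' with hzdef
      have hz : Φ z = 1 := by rw [hzdef, map_smul, smul_eq_mul, inv_mul_cancel₀ hz']
      have heq : ∀ x, Φ₁ x = Φ x * Φ₁ z := fun x => by
        have := hex (x - Φ x • z) (by simp [hz])
        rwa [map_sub, map_smul, smul_eq_mul, sub_eq_zero] at this
      have hc : Φ₁ z ≠ 0 := fun h0 => hΦ₁0 (LinearMap.ext fun x => by
        rw [heq x, h0, mul_zero]; rfl)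
      refine (hscale (Φ₁ z)⁻¹).congr fun x => ?_
      show e₀ ((Φ₁ z)⁻¹ • Φ₁ x) • y = e₀ (Φ x) • y
      rw [smul_eq_mul, heq x, mul_comm (Φ x), inv_mul_cancel_left₀ hc]
  refine ⟨v, hv, fun μ hμ z hz => ?_⟩
  obtain ⟨Φ, hΦ⟩ := exists_klift e₀ he μ
  have hΦv : Φ v = 0 := klift_kill he hΦ hμ
  exact (hcentre Φ hΦv (haxis Φ hΦv) z hz).congr fun x => by simp [hΦ]

theorem fullAt_all (hSL : HasSL K G) {v : V} (hv : v ≠ 0) (h : FullAt K G v) (v' : V) (hv' : v' ≠ 0) :
    FullAt K G v' := by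
  by_cases hdep : v' ∈ (K ∙ v)
  · obtain ⟨c, hc⟩ := Submodule.mem_span_singleton.mp hdep
    have hline : kline F K v' = kline F K v := by
      have hc0 : c ≠ 0 := fun h0 => hv' (by rw [← hc, h0, zero_smul])
      rw [kline, kline, ← hc, Submodule.span_singleton_smul_eq (isUnit_iff_ne_zero.mpr hc0)]
    intro μ hμ y hy
    exact h μ (hline ▸ hμ) y (hline ▸ hy)
  · have hvn : v ∉ (K ∙ (v' - v)) := fun hc => by
      obtain ⟨c, hc⟩ := Submodule.mem_span_singleton.mp hc
      by_cases hc0 : c = 0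
      · exact hv (by rw [← hc, hc0, zero_smul])
      apply hdep
      refine Submodule.mem_span_singleton.mpr ⟨(1 + c) / c, ?_⟩
      have h2 : c • v' = (1 + c) • v := by rw [add_smul, one_smul]; rw [smul_sub] at hc; linear_combination (norm := module) hc
      rw [div_eq_inv_mul, ← smul_smul, ← h2, smul_smul, inv_mul_cancel₀ hc0, one_smul]
    obtain ⟨Ψ, hΨv, hΨ⟩ := Submodule.exists_dual_map_eq_bot_of_notMem hvn inferInstance
    have hΨd : Ψ (v' - v) = 0 :=
      (Submodule.eq_bot_iff _).mp hΨ _ ⟨_, Submodule.mem_span_singleton_self _, rfl⟩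
    set Φ := (Ψ v)⁻¹ • Ψ with hΦdef
    have hΦd : Φ (v' - v) = 0 := by simp [hΦdef, hΨd]
    obtain ⟨g, hg, hgx⟩ := mem_elation hSL (v' - v) Φ hΦd
    have hgv : g v = v' := by
      rw [hgx]
      show v + Φ v • (v' - v) = v'
      rw [show Φ v = 1 from inv_mul_cancel₀ hΨv, one_smul, add_sub_cancel]
    have hgK : ∀ (c : K) x, g (c • x) = c • g x := fun c x => by
      rw [hgx, hgx]
      simp [smul_smul]
    intro μ hμ y hy
    obtain ⟨c, rfl⟩ := mem_kline.mp hy
    refine ((h (μ ∘ₗ g.toLinearMap) (fun x hx => ?_) (c • v) (smul_mem_kline (self_mem_kline v) c)).conj hg).congr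
      fun x => ?_
    · obtain ⟨e, rfl⟩ := mem_kline.mp hx
      show μ (g (e • v)) = 0
      rw [hgK, hgv]
      exact hμ _ (smul_mem_kline (self_mem_kline v') e)
    · simp [self_inv_apply, hgK, hgv]

/-- All transvections lie in `G`. -/
theorem mem_transvection (hm : 2 ≤ finrank K V) (hSL : HasSL K G) {v : V} (hv : v ≠ 0) (h : FullAt K G v)
    (μ : V →ₗ[F] F) (y : V) (hμy : μ y = 0) : Mem G (rk1 μ y) := by
  classical
  by_cases hy : y = 0
  · exact mem_zero.congr fun x => by simp [hy]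
  obtain ⟨e₀, he₀⟩ := exists_dual_eq_one_aux (K := F) (W := K) one_ne_zero
  have he : e₀ ≠ 0 := fun h => by simp [h] at he₀
  obtain ⟨Φ, hΦ⟩ := exists_klift e₀ he μ
  by_cases hex : ∃ w, Φ w = 0 ∧ w ∉ (K ∙ y)
  · obtain ⟨w, hw, hwy⟩ := hex
    have hw0 : w ≠ 0 := fun h0 => hwy (h0 ▸ Submodule.zero_mem _)
    have hμw : ∀ x ∈ kline F K w, μ x = 0 := fun x hx => by
      obtain ⟨c, rfl⟩ := mem_kline.mp hx
      rw [hΦ, map_smul, hw, smul_zero, map_zero]
    obtain ⟨Ψ, hΨw, hΨ⟩ := Submodule.exists_dual_map_eq_bot_of_notMem hwy inferInstance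
    have hΨy : Ψ y = 0 := (Submodule.eq_bot_iff _).mp hΨ _ ⟨_, Submodule.mem_span_singleton_self _, rfl⟩
    set φ : V →ₗ[F] F := e₀ ∘ₗ ((Ψ w)⁻¹ • Ψ).restrictScalars F with hφdef
    have hφy : ∀ x ∈ kline F K y, φ x = 0 := fun x hx => by
      obtain ⟨c, rfl⟩ := mem_kline.mp hx
      simp [hφdef, hΨy]
    have hφw : φ w = 1 := by
      show e₀ ((Ψ w)⁻¹ • Ψ w) = 1
      rw [smul_eq_mul, inv_mul_cancel₀ hΨw, he₀]
    obtain ⟨g, hg, hgx⟩ := fullAt_all hSL hv h y hy φ hφy y (self_mem_kline y)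
    have hφyy : φ y = 0 := hφy y (self_mem_kline y)
    have hginv : ∀ x, g.symm x = x - φ x • y := fun x => g.injective (by
      rw [LinearEquiv.apply_symm_apply, hgx]
      simp [hφyy])
    have h2 := fullAt_all hSL hv h w hw0 μ hμw w (self_mem_kline w)
    have hμww : μ w = 0 := hμw w (self_mem_kline w)
    refine (Mem.add (h2.conj hg) (h2.neg fun x => by simp [hμww]) fun x => ?_).congr fun x => ?_
    · simp [hginv, hμy, hμww]
    · simp [hginv, hgx, hμy, hφw, smul_add]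
  · push Not at hex
    refine fullAt_all hSL hv h y hy μ ?_ y (self_mem_kline y)
    intro x hx
    obtain ⟨c, rfl⟩ := mem_kline.mp hx
    rw [hΦ, map_smul]
    obtain ⟨w, hw, hw0⟩ := (Submodule.ne_bot_iff _).mp (show LinearMap.ker Φ ≠ ⊥ from fun hb => by
      have := LinearMap.finrank_le_finrank_of_injective (LinearMap.ker_eq_bot.mp hb)
      rw [Module.finrank_self] at this
      omega)
    obtain ⟨e, he'⟩ := Submodule.mem_span_singleton.mp (hex w hw)
    have he0 : e ≠ 0 := fun h0 => hw0 (by rw [← he', h0, zero_smul])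
    have : Φ (e • y) = 0 := he' ▸ hw
    rw [map_smul, smul_eq_mul, mul_eq_zero] at this
    rw [this.resolve_left he0, smul_zero, map_zero]

end Cfsg.Agent.MaxSub.ExtField
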