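import Cfsg.Agent.MaxSub.ExtField.Transvec

/-!
The case of the field of two elements in dimension four.
-/

set_option autoImplicit false
set_option linter.style.haveILetI false
set_option linter.unusedSectionVars false

namespace Cfsg.Agent.MaxSub.ExtField

open Module

namespace Small

/-- Coordinates. -/
abbrev P4 := Bool × Bool × Bool × Bool

def fD : P4 → P4 := fun (a, b, c, e) => (c, b, xor a c, e)
def fU1 : P4 → P4 := fun (a, b, c, e) => (xor a b, b, xor c e, e)
def fUw : P4 → P4 := fun (a, b, c, e) => (xor a e, b, xor c (xor b e), e)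
def fL1 : P4 → P4 := fun (a, b, c, e) => (a, xor b a, c, xor e c)
def fLw : P4 → P4 := fun (a, b, c, e) => (a, xor b c, c, xor e (xor a c))
def fA1 : P4 → P4 := fun (a, b, c, e) => (xor a (xor c e), xor b e, c, e)
def fB : P4 → P4 := fun (a, b, c, e) => (xor a e, xor b (xor c e), c, e)

def tgt0 : P4 → P4 := fun (a, b, c, e) => (xor a b, b, xor c b, e)
def tgt1 : P4 → P4 := fun (a, b, c, e) => (xor a e, b, xor c e, e)

theorem word0 : ∀ p, fL1 (fU1 (fD (fB (fLw (fUw (fB (fD p))))))) = tgt0 p := by decide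

theorem word1 : ∀ p, fD (fA1 (fD (fA1 p))) = tgt1 p := by decide

end Small

variable {F K V : Type*} [Field F] [Field K] [Algebra F K] [AddCommGroup V] [Module F V] [Module K V]
  [IsScalarTower F K V] {G : Subgroup (V ≃ₗ[F] V)}

open Small in
theorem hasLineTransvec_small [FiniteDimensional F V] [FiniteDimensional F K] [FiniteDimensional K V] [Finite K]
    (hr : finrank F K = 2) (hm : finrank K V < 3) (hF : ∀ t : F, t = 0 ∨ t = 1) (hSL : HasSL K G)
    (P : PairData K G) : HasLineTransvec K G := by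
  classical
  set L := kline F K P.v with hLdef
  set D : Submodule F V := P.U ⊓ L with hD
  set A := P.A P.k₀ with hA
  set d := A P.x₀ with hd
  have hdU : d ∈ P.U := P.A_range _ _
  have hdL : d ∈ L := P.A_stab _ P.x₀_mem
  have hd0 : d ≠ 0 := P.k₀_ne
  have hDfin : finrank F D = 1 := by have := P.inf_finrank; rw [hr] at this; rw [hD, hLdef]; omega
  have hDmem : ∀ z ∈ D, z = 0 ∨ z = d := by
    intro z hz
    obtain ⟨c, hc⟩ := (finrank_eq_one_iff_of_nonzero' (⟨d, hdU, hdL⟩ : D)
      (fun h => hd0 (congrArg Subtype.val h))).mp hDfin ⟨z, hz⟩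
    have hc' : c • d = z := congrArg Subtype.val hc
    rcases hF c with rfl | rfl
    · left; rw [← hc', zero_smul]
    · right; rw [← hc', one_smul]
  have h2 : (2 : F) = 0 := (hF 2).resolve_right fun h => one_ne_zero (show (1 : F) = 0 by linear_combination h)
  have hadd : ∀ z : V, z + z = 0 := fun z => by rw [← two_smul F z, h2, zero_smul]
  have hnle : ¬ P.U ≤ L := fun hle => by
    have h3 : finrank F P.U ≤ finrank F D := Submodule.finrank_mono (le_inf le_rfl hle)
    rw [P.U_finrank, hr, hDfin] at h3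
    omega
  obtain ⟨u, huU, huL⟩ := SetLike.not_le_iff_exists.mp hnle
  have hu0 : u ≠ 0 := fun h => huL (h ▸ L.zero_mem)
  obtain ⟨χ₁, hχ₁0, hχ₁L⟩ := Submodule.exists_dual_map_eq_bot_of_notMem huL inferInstance
  have hUdec := hyperplane_decomp (D := D) (inf_le_left : D ≤ P.U) (by rw [P.U_finrank, hr, hDfin]) huU
    ((χ₁ u)⁻¹ • χ₁) (fun z hz => by
      have := (Submodule.eq_bot_iff _).mp hχ₁L _ ⟨z, hz.2, rfl⟩
      simp [this]) (inv_mul_cancel₀ hχ₁0)
  have hUmem : ∀ y ∈ P.U, y = 0 ∨ y = d ∨ y = u ∨ y = d + u := by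
    intro y hy
    have h3 := hDmem _ (hUdec y hy)
    rcases hF (((χ₁ u)⁻¹ • χ₁) y) with h4 | h4 <;> rw [h4] at h3 <;>
      simp only [zero_smul, one_smul, sub_zero, sub_eq_iff_eq_add, zero_add] at h3
    · rcases h3 with h | h
      · exact Or.inl h
      · exact Or.inr (Or.inl h)
    · rcases h3 with h | h
      · exact Or.inr (Or.inr (Or.inl h))
      · exact Or.inr (Or.inr (Or.inr h))
  obtain ⟨b, hb⟩ := mem_kline.mp hdL
  obtain ⟨b₀, hb₀⟩ := mem_kline.mp P.x₀_mem
  have hbne : b ≠ 0 := fun h => hd0 (by rw [← hb, h, zero_smul])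
  set ω := b₀ / b with hω
  have hωd : ω • d = P.x₀ := by rw [hω, ← hb, smul_smul, div_mul_cancel₀ _ hbne, hb₀]
  have hωF : ∀ t : F, algebraMap F K t ≠ ω := fun t ht => P.x₀_not (by
    rw [← hωd, ← ht, algebraMap_smul]; exact P.U.smul_mem t hdU)
  have hω1 : ω ≠ 1 := fun h => hωF 1 (by rw [map_one, h])
  have hω0 : ω ≠ 0 := fun h => hωF 0 (by rw [map_zero, h])
  haveI := Fintype.ofFinite K
  haveI : Finite F := Finite.of_injective _ (algebraMap F K).injective
  haveI := Fintype.ofFinite F
  have hK4 : Fintype.card K = 4 := by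
    have hF2 : Fintype.card F = 2 := by
      have : (Finset.univ : Finset F) = {0, 1} := Finset.ext fun t => by simpa using hF t
      rw [← Finset.card_univ, this, Finset.card_pair zero_ne_one]
    rw [Module.card_eq_pow_finrank (K := F), hF2, hr]
    norm_num
  have hK2 : (2 : K) = 0 := by rw [← map_ofNat (algebraMap F K) 2, h2, map_zero]
  have hωsq : ω * ω = ω + 1 := by
    have h3 := FiniteField.pow_card_sub_one_eq_one ω hω0
    rw [hK4] at h3
    have h5 : (ω - 1) * (ω * ω + ω + 1) = 0 := by linear_combination h3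
    have h6 := (mul_eq_zero.mp h5).resolve_left (sub_ne_zero.mpr hω1)
    linear_combination h6 - (ω + 1) * hK2
  have hωω : ∀ z : V, ω • ω • z = z + ω • z := fun z => by rw [smul_smul, hωsq, add_smul, one_smul, add_comm]
  -- the coordinates
  let cf : Bool → F := fun t => if t then 1 else 0
  let pt : P4 → V := fun (a, b', c, e) => cf a • d + cf b' • u + cf c • (ω • d) + cf e • (ω • u)
  have hsmul : ∀ (t : F) (z : V), ω • (t • z) = t • (ω • z) := fun t z => smul_comm ω t z
  have huv : u ∉ (K ∙ d) := fun h => by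
    obtain ⟨c, hc⟩ := Submodule.mem_span_singleton.mp h
    exact huL (hc ▸ smul_mem_kline hdL c)
  have hsurj : Function.Surjective pt := by
    have hbasis : Submodule.span K {d, u} = ⊤ := by
      have hlt : (K ∙ d) < Submodule.span K {d, u} := lt_of_le_of_ne (Submodule.span_mono (by simp))
        (fun h => huv (h ▸ Submodule.subset_span (Set.mem_insert_of_mem _ rfl)))
      have h3 := Submodule.finrank_lt_finrank_of_lt hlt
      rw [finrank_span_singleton hd0] at h3
      exact Submodule.eq_top_of_finrank_eq (by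
        have := Submodule.finrank_le (Submodule.span K {d, u})
        omega)
    have hK : ∀ s : K, ∃ a c : Bool, s = algebraMap F K (cf a) + algebraMap F K (cf c) * ω := by
      intro s
      let f : Bool × Bool → K := fun p => algebraMap F K (cf p.1) + algebraMap F K (cf p.2) * ω
      have hcf : Function.Injective cf := fun x y h => by
        cases x <;> cases y <;> simp [cf] at h ⊢
      have hinj : Function.Injective f := by
        rintro ⟨a, c⟩ ⟨a', c'⟩ h
        simp only [f] at h
        by_cases hcc : c = c'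
        · subst hcc
          simp only [add_left_inj] at h
          rw [hcf ((algebraMap F K).injective h)]
        · exfalso
          apply hωF ((cf a - cf a') / (cf c' - cf c))
          have hne : algebraMap F K (cf c' - cf c) ≠ 0 :=
            (map_ne_zero _).mpr (sub_ne_zero.mpr fun h => hcc (hcf h).symm)
          rw [map_div₀, div_eq_iff hne, map_sub, map_sub]
          linear_combination h
      obtain ⟨⟨a, c⟩, h⟩ := ((Fintype.bijective_iff_injective_and_card f).mpr ⟨hinj, by simp [hK4]⟩).2 s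
      exact ⟨a, c, h.symm⟩
    intro x
    obtain ⟨s, t, hst⟩ := Submodule.mem_span_pair.mp (hbasis ▸ (Submodule.mem_top : x ∈ ⊤))
    obtain ⟨a, c, rfl⟩ := hK s
    obtain ⟨b', e, rfl⟩ := hK t
    refine ⟨(a, b', c, e), ?_⟩
    rw [← hst]
    simp only [pt, add_smul, mul_smul, algebraMap_smul]
    abel
  have hlin : ∀ (g : V ≃ₗ[F] V) (f : P4 → P4),
      g d = pt (f (true, false, false, false)) → g u = pt (f (false, true, false, false)) →
      g (ω • d) = pt (f (false, false, true, false)) → g (ω • u) = pt (f (false, false, false, true)) →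
      (∀ a b' c e, pt (f (a, b', c, e)) = cf a • pt (f (true, false, false, false)) +
        cf b' • pt (f (false, true, false, false)) + cf c • pt (f (false, false, true, false)) +
        cf e • pt (f (false, false, false, true))) → ∀ p, g (pt p) = pt (f p) := by
    rintro g f h1 h2' h3 h4 h5 ⟨a, b', c, e⟩
    rw [h5]
    simp only [pt, map_add, map_smul, h1, h2', h3, h4]
  have h2n : ∀ z : V, (2 : ℕ) • z = 0 := fun z => by rw [two_nsmul, hadd]
  have h2z : ∀ z : V, (2 : ℤ) • z = 0 := fun z => by rw [two_zsmul, hadd]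
  have h3n : ∀ z : V, (3 : ℕ) • z = z := fun z => by rw [succ_nsmul, h2n, zero_add]
  have h3z : ∀ z : V, (3 : ℤ) • z = z := fun z => by rw [show (3 : ℤ) = 2 + 1 from rfl, add_zsmul, h2z, zero_add, one_zsmul]
  have hxor : ∀ s t : Bool, cf (xor s t) = cf s + cf t := fun s t => by
    cases s <;> cases t <;> simp [cf, one_add_one_eq_two, h2]
  -- elations and the dilation
  obtain ⟨Φu₁, hΦu₁, hΦu₁d⟩ := Submodule.exists_dual_map_eq_bot_of_notMem huv inferInstance
  set Φu := (Φu₁ u)⁻¹ • Φu₁ with hΦudef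
  have hΦuu : Φu u = 1 := inv_mul_cancel₀ hΦu₁
  have hΦud : Φu d = 0 := by
    have := (Submodule.eq_bot_iff _).mp hΦu₁d _ ⟨d, Submodule.mem_span_singleton_self d, rfl⟩
    simp [hΦudef, this]
  have hdu : d ∉ (K ∙ u) := fun h => by
    obtain ⟨c, hc⟩ := Submodule.mem_span_singleton.mp h
    have hc0 : c ≠ 0 := fun h0 => hd0 (by rw [← hc, h0, zero_smul])
    exact huv (Submodule.mem_span_singleton.mpr ⟨c⁻¹, by rw [← hc, smul_smul, inv_mul_cancel₀ hc0, one_smul]⟩)
  obtain ⟨Φd₁, hΦd₁, hΦd₁u⟩ := Submodule.exists_dual_map_eq_bot_of_notMem hdu inferInstance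
  set Φd := (Φd₁ d)⁻¹ • Φd₁ with hΦddef
  have hΦdd : Φd d = 1 := inv_mul_cancel₀ hΦd₁
  have hΦdu : Φd u = 0 := by
    have := (Submodule.eq_bot_iff _).mp hΦd₁u _ ⟨u, Submodule.mem_span_singleton_self u, rfl⟩
    simp [hΦddef, this]
  let Real : (P4 → P4) → Prop := fun f => ∃ g ∈ G, ∀ p, g (pt p) = pt (f p)
  have hcomp : ∀ f f', Real f → Real f' → Real (fun p => f (f' p)) := by
    rintro f f' ⟨g, hg, h1⟩ ⟨g', hg', h1'⟩
    exact ⟨g * g', G.mul_mem hg hg', fun p => by rw [LinearEquiv.mul_apply, h1', h1]⟩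
  have rU1 : Real fU1 := by
    obtain ⟨g, hg, hgx⟩ := mem_elation hSL d Φu hΦud
    refine ⟨g, hg, hlin g fU1 ?_ ?_ ?_ ?_ ?_⟩
    all_goals simp [hgx, fU1, pt, hxor, cf, hΦud, hΦuu, LinearMap.smulRight_apply]
    all_goals intros
    all_goals (try abel_nf)
    all_goals simp [h2n, h2z, h3n, h3z]
  have rUw : Real fUw := by
    obtain ⟨g, hg, hgx⟩ := mem_elation hSL (ω • d) Φu (by simp [hΦud])
    refine ⟨g, hg, hlin g fUw ?_ ?_ ?_ ?_ ?_⟩
    all_goals simp [hgx, fUw, pt, hxor, cf, hΦud, hΦuu, LinearMap.smulRight_apply, hωω]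
    all_goals intros
    all_goals (try abel_nf)
    all_goals simp [h2n, h2z, h3n, h3z]
  have rL1 : Real fL1 := by
    obtain ⟨g, hg, hgx⟩ := mem_elation hSL u Φd hΦdu
    refine ⟨g, hg, hlin g fL1 ?_ ?_ ?_ ?_ ?_⟩
    all_goals simp [hgx, fL1, pt, hxor, cf, hΦdu, hΦdd, LinearMap.smulRight_apply]
    all_goals intros
    all_goals (try abel_nf)
    all_goals simp [h2n, h2z, h3n, h3z]
  have rLw : Real fLw := by
    obtain ⟨g, hg, hgx⟩ := mem_elation hSL (ω • u) Φd (by simp [hΦdu])
    refine ⟨g, hg, hlin g fLw ?_ ?_ ?_ ?_ ?_⟩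
    all_goals simp [hgx, fLw, pt, hxor, cf, hΦdu, hΦdd, LinearMap.smulRight_apply, hωω]
    all_goals intros
    all_goals (try abel_nf)
    all_goals simp [h2n, h2z, h3n, h3z]
  have rD : Real fD := by
    have hν : Algebra.norm F ω = 1 := by
      rcases hF (Algebra.norm F ω) with h | h
      · exact absurd (Algebra.norm_eq_zero_iff.mp h) hω0
      · exact h
    obtain ⟨g, hg, hgx⟩ := exists_dilation hSL d Φd hΦdd ω hν
    have hgd : g d = ω • d := by
      rw [(hgx _).1, hΦdd, mul_one, sub_smul, one_smul, add_sub_cancel]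
    have hgu : g u = u := by rw [(hgx _).1, hΦdu, mul_zero, zero_smul, add_zero]
    have hgwd : g (ω • d) = d + ω • d := by
      rw [(hgx _).1, LinearMap.map_smul Φd, hΦdd, smul_eq_mul, mul_one, ← add_smul,
        show ω + (ω - 1) * ω = ω * ω by ring, hωsq, add_smul, one_smul, add_comm]
    have hgwu : g (ω • u) = ω • u := by
      rw [(hgx _).1, LinearMap.map_smul Φd, hΦdu, smul_zero, mul_zero, zero_smul, add_zero]
    refine ⟨g, hg, hlin g fD ?_ ?_ ?_ ?_ ?_⟩
    all_goals simp [hgd, hgu, hgwd, hgwu, fD, pt, hxor, cf]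
    all_goals intros
    all_goals (try abel_nf)
    all_goals simp [h2n, h2z, h3n, h3z]
  -- the elations of `U`
  have hAd : ∀ k, P.A k d = 0 := fun k => P.A_kill k d hdU
  have hAu : ∀ k, P.A k u = 0 := fun k => P.A_kill k u huU
  have hAimg : ∀ k (z : V), (P.A k) (ω • d) = z → ∀ x, ∃ s t : F, P.A k x = s • z + t • P.A k (ω • u) := by
    intro k z hz x
    obtain ⟨⟨a, b', c, e⟩, rfl⟩ := hsurj x
    exact ⟨cf c, cf e, by simp [pt, map_add, map_smul, hAd, hAu, hz]⟩
  have hk₀ : P.k₀ ≠ 0 := fun h => P.k₀_ne (by simp [h])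
  have hnot : ∀ k ≠ 0, ∀ z w : V, P.A k (ω • d) = z → (P.A k (ω • u) = 0 ∨ P.A k (ω • u) = z) →
      w ∈ P.U → w ≠ 0 → w ≠ z → False := by
    intro k hk z w hz hcase hw hw0 hwz
    obtain ⟨x, hx⟩ := P.A_surj k hk w hw
    obtain ⟨s, t, hst⟩ := hAimg k z hz x
    have h4 : ∃ s' : F, w = s' • z := by
      rcases hcase with h | h <;> rw [h, hx] at hst
      · exact ⟨s, by rw [hst, smul_zero, add_zero]⟩
      · exact ⟨s + t, by rw [hst, add_smul]⟩
    obtain ⟨s', hs'⟩ := h4
    rcases hF s' with rfl | rfl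
    · exact hw0 (by rw [hs', zero_smul])
    · exact hwz (by rw [hs', one_smul])
  have hdune : d + u ≠ 0 := fun h => huL (by
    have : u = d := by
      calc u = u + (d + d) := by rw [hadd, add_zero]
        _ = (d + u) + d := by abel
        _ = d := by rw [h, zero_add]
    exact this ▸ hdL)
  have hud : u ≠ d := fun h => huL (h ▸ hdL)
  have hAd' : A (ω • d) = d := by rw [hωd]
  -- conclusion from a transvection
  have hfinish : ∀ f : P4 → P4, Real f → (∀ a c, f (a, false, c, false) = (a, false, c, false)) →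
      (∀ p, pt (f p) - pt p = 0 ∨ pt (f p) - pt p = d + ω • d) → (∃ p, pt (f p) - pt p = d + ω • d) →
      HasLineTransvec K G := by
    rintro f ⟨g, hg, hgp⟩ hfix hdiff ⟨p₀, hp₀⟩
    set y := d + ω • d with hy
    have hy0 : y ≠ 0 := fun h => by
      have h7 : (1 + ω) • d = 0 := by rw [add_smul, one_smul]; exact h
      rcases smul_eq_zero.mp h7 with h8 | h8
      · exact hω1 (by linear_combination h8 - hK2)
      · exact hd0 h8
    obtain ⟨ζ, hζ⟩ := exists_dual_eq_one_aux (K := F) hy0
    refine ⟨P.v, y, ζ ∘ₗ (g.toLinearMap - LinearMap.id), P.v_ne, L.add_mem hdL (smul_mem_kline hdL ω), hy0,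
      fun h0 => ?_, fun x hx => ?_, g, hg, fun x => ?_⟩
    · have := LinearMap.congr_fun h0 (pt p₀)
      simp [hgp, hp₀, hζ] at this
    · obtain ⟨c, rfl⟩ := mem_kline.mp hx
      obtain ⟨⟨a, b', c', e⟩, hp⟩ := hsurj (c • P.v)
      have hb' : b' = false ∧ e = false := by
        have h8 : Φu (pt (a, b', c', e)) = 0 := by
          rw [hp]
          have h9 : Φu P.v = 0 := by
            have := hΦud
            rw [← hb, map_smul, smul_eq_mul] at this
            exact (mul_eq_zero.mp this).resolve_left hbne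
          rw [map_smul, h9, smul_zero]
        simp only [pt, map_add, map_smul, hΦud, hΦuu, smul_zero, add_zero, zero_add] at h8
        have hFsmul : ∀ (s : F) (z : V), Φu (s • z) = s • Φu z := fun s z => (Φu.restrictScalars F).map_smul s z
        simp only [hFsmul, map_smul, hΦud, hΦuu, smul_zero, zero_add, smul_eq_mul, mul_one] at h8
        cases b' <;> cases e <;> simp [cf] at h8 ⊢
        · exact absurd h8 hω0
        · exact hω1 (by linear_combination h8 - hK2)
      obtain ⟨rfl, rfl⟩ := hb'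
      rw [← hp]
      simp [hgp, hfix]
    · obtain ⟨p, rfl⟩ := hsurj x
      show g (pt p) = pt p + ζ (g (pt p) - pt p) • y
      rw [hgp]
      rcases hdiff p with h | h <;> rw [h]
      · rw [map_zero, zero_smul, add_zero]; exact sub_eq_zero.mp h
      · rw [hζ, one_smul, ← h]; abel
  have hAwu : A (ω • u) = u ∨ A (ω • u) = d + u := by
    rcases hUmem _ (P.A_range P.k₀ (ω • u)) with h | h | h | h
    · exact (hnot _ hk₀ d u hAd' (Or.inl h) huU hu0 hud).elim
    · exact (hnot _ hk₀ d u hAd' (Or.inr h) huU hu0 hud).elim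
    · exact Or.inl h
    · exact Or.inr h
  obtain ⟨a, ha, hax⟩ := P.A_mem P.k₀
  have hdiff1 : ∀ c : Bool, cf c • (d + ω • d) = 0 ∨ cf c • (d + ω • d) = d + ω • d := fun c => by
    cases c <;> simp [cf]
  rcases hAwu with hδ | hδ
  · obtain ⟨k₁, hk₁⟩ := P.A_param u huU
    have hBd : P.A k₁ (ω • d) = u := by rw [hωd, hk₁]
    have hk₁0 : k₁ ≠ 0 := fun h => hu0 (by rw [← hk₁, h]; simp)
    have hsum0 : k₁ + P.k₀ ≠ 0 := fun h => by
      have h3 : P.A (k₁ + P.k₀) (ω • d) = u + d := by rw [map_add, LinearMap.add_apply, hBd, hAd']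
      rw [h, map_zero, LinearMap.zero_apply] at h3
      exact hdune (by rw [add_comm]; exact h3.symm)
    have hBu : P.A k₁ (ω • u) = d + u := by
      rcases hUmem _ (P.A_range k₁ (ω • u)) with h | h | h | h
      · exact (hnot _ hk₁0 u d hBd (Or.inl h) hdU hd0 hud.symm).elim
      · exfalso
        have h3 : P.A (k₁ + P.k₀) (ω • d) = u + d := by rw [map_add, LinearMap.add_apply, hBd, hAd']
        have h4 : P.A (k₁ + P.k₀) (ω • u) = u + d := by
          rw [map_add, LinearMap.add_apply, h, hδ, add_comm]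
        exact hnot _ hsum0 (u + d) d h3 (Or.inr h4) hdU hd0 fun he => hu0 (by simpa using he.symm)
      · exact (hnot _ hk₁0 u d hBd (Or.inr h) hdU hd0 hud.symm).elim
      · exact h
    have rB : Real fB := by
      obtain ⟨g, hg, hgx⟩ := P.A_mem k₁
      refine ⟨g, hg, hlin g fB ?_ ?_ ?_ ?_ ?_⟩
      all_goals simp [hgx, fB, pt, hxor, cf, hAd, hAu, hBd, hBu]
      all_goals intros
      all_goals (try abel_nf)
      all_goals simp [h2n, h2z, h3n, h3z]
    refine hfinish tgt0 ?_ (fun a c => by simp [tgt0]) ?_ ⟨(false, true, false, false), by simp [tgt0, pt, cf]; abel⟩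
    · obtain ⟨g, hg, hgp⟩ := hcomp fL1 (fun p => fU1 (fD (fB (fLw (fUw (fB (fD p))))))) rL1
        (hcomp fU1 (fun p => fD (fB (fLw (fUw (fB (fD p)))))) rU1
        (hcomp fD (fun p => fB (fLw (fUw (fB (fD p))))) rD
        (hcomp fB (fun p => fLw (fUw (fB (fD p)))) rB
        (hcomp fLw (fun p => fUw (fB (fD p))) rLw
        (hcomp fUw (fun p => fB (fD p)) rUw (hcomp fB fD rB rD))))))
      exact ⟨g, hg, fun p => (hgp p).trans (congrArg pt (word0 p))⟩
    · rintro ⟨a', b', c, e⟩
      have : pt (tgt0 (a', b', c, e)) - pt (a', b', c, e) = cf b' • (d + ω • d) := by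
        simp only [tgt0, pt, hxor, add_smul, smul_add]; abel
      rw [this]; exact hdiff1 b'
  · have rA : Real fA1 := by
      refine ⟨a, ha, hlin a fA1 ?_ ?_ ?_ ?_ ?_⟩
      all_goals simp [hax, ← hA, fA1, pt, hxor, cf, show A d = 0 from hAd _, show A u = 0 from hAu _, hAd', hδ]
      all_goals intros
      all_goals (try abel_nf)
      all_goals (try simp [h2n, h2z, h3n, h3z])
    refine hfinish tgt1 ?_ (fun a c => by simp [tgt1]) ?_ ⟨(false, false, false, true), by simp [tgt1, pt, cf]⟩
    · obtain ⟨g, hg, hgp⟩ := hcomp fD (fun p => fA1 (fD (fA1 p))) rD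
        (hcomp fA1 (fun p => fD (fA1 p)) rA (hcomp fD fA1 rD rA))
      exact ⟨g, hg, fun p => (hgp p).trans (congrArg pt (word1 p))⟩
    · rintro ⟨a', b', c, e⟩
      have : pt (tgt1 (a', b', c, e)) - pt (a', b', c, e) = cf e • (d + ω • d) := by
        simp only [tgt1, pt, hxor, add_smul, smul_add]; abel
      rw [this]; exact hdiff1 e

end Cfsg.Agent.MaxSub.ExtField
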