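import Cfsg.Agent.MaxSub.ExtField.Generate
import Cfsg.Agent.MaxSub.ExtField.Small
import Cfsg.Agent.MaxSub.FieldSub
import Cfsg.Agent.GeoClasses.TransvGen
import Cfsg.Agent.ClassicalMax.FormProper

/-!
The normaliser of an extension field of prime degree is maximal.
-/

set_option autoImplicit false
set_option linter.style.haveILetI false
set_option linter.unusedSectionVars false

namespace Cfsg.Agent.MaxSub.ExtField

open Module

variable {F K V : Type*} [Field F] [Field K] [Algebra F K] [AddCommGroup V] [Module F V] [Module K V]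
  [IsScalarTower F K V] [FiniteDimensional F V] [FiniteDimensional F K] [FiniteDimensional K V]

theorem all_transvections [Finite K] {G : Subgroup (V ≃ₗ[F] V)} {r : ℕ} (hr : finrank F K = r) (hp : r.Prime)
    (hm : 2 ≤ finrank K V) (hSL : HasSL K G)
    (hnot : ∃ h ∈ G, ∃ w : V, w ≠ 0 ∧ ∀ v, (kline F K w).map h.toLinearMap ≠ kline F K v)
    (μ : V →ₗ[F] F) (y : V) (hμy : μ y = 0) : Mem G (rk1 μ y) := by
  obtain ⟨P⟩ := exists_pairData hr hp hSL hnot
  have ht := hasLineTransvec_of_pair hr hp hSL P fun h2 h3 h4 =>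
    hasLineTransvec_small (hr.trans h2) h3 h4 hSL P
  obtain ⟨v, hv, hfull⟩ := fullAt_of_hasLineTransvec hr hp.two_le hSL ht
  exact mem_transvection hm hSL hv hfull μ y hμy

/-- A map sending lines to lines is semilinear. -/
theorem semilinear_of_lines (hm : 2 ≤ finrank K V) (h : V ≃ₗ[F] V)
    (hl : ∀ w : V, w ≠ 0 → ∃ v, (kline F K w).map h.toLinearMap = kline F K v) :
    ∀ c : K, ∃ c' : K, ∀ x, h (c • x) = c' • h x := by
  have hline : ∀ w : V, w ≠ 0 → (kline F K w).map h.toLinearMap = kline F K (h w) := by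
    intro w hw
    obtain ⟨v, hv⟩ := hl w hw
    have h1 : h w ∈ kline F K v := hv ▸ Submodule.mem_map_of_mem (self_mem_kline w)
    obtain ⟨a, ha⟩ := mem_kline.mp h1
    have ha0 : a ≠ 0 := fun h0 => hw (h.injective (by rw [← ha, h0, zero_smul, map_zero]))
    rw [hv, kline, kline, ← ha, Submodule.span_singleton_smul_eq (isUnit_iff_ne_zero.mpr ha0)]
  have hex : ∀ (w : V) (c : K), ∃ c' : K, h (c • w) = c' • h w := by
    intro w c
    by_cases hw : w = 0
    · exact ⟨0, by simp [hw]⟩
    have h1 : h (c • w) ∈ kline F K (h w) :=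
      hline w hw ▸ Submodule.mem_map_of_mem (smul_mem_kline (self_mem_kline w) c)
    obtain ⟨c', hc'⟩ := mem_kline.mp h1
    exact ⟨c', hc'.symm⟩
  choose σ hσ using hex
  have hind : ∀ w w' : V, w ≠ 0 → w' ∉ (K ∙ w) → ∀ c, σ w c = σ w' c := by
    intro w w' hw hw' c
    have hw'0 : w' ≠ 0 := fun h0 => hw' (h0 ▸ Submodule.zero_mem _)
    have hli : ∀ a b : K, a • h w + b • h w' = 0 → a = 0 ∧ b = 0 := by
      intro a b hab
      by_cases hb : b = 0
      · subst hb
        rw [zero_smul, add_zero, smul_eq_zero] at hab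
        exact ⟨hab.resolve_right fun h0 => hw (h.map_eq_zero_iff.mp h0), rfl⟩
      exfalso
      apply hw'
      have h1 : h w' ∈ kline F K (h w) := mem_kline.mpr ⟨-(b⁻¹ * a), by
        have h2 : h w' = -(b⁻¹ * a) • h w := by
          rw [neg_smul, ← smul_smul, eq_neg_of_add_eq_zero_left hab, smul_neg, smul_smul, inv_mul_cancel₀ hb, one_smul,
            neg_neg]
        exact h2.symm⟩
      rw [← hline w hw] at h1
      obtain ⟨z, hz, hzz⟩ := h1
      obtain ⟨e, rfl⟩ := mem_kline.mp hz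
      exact Submodule.mem_span_singleton.mpr ⟨e, h.injective hzz⟩
    have h3 := hσ (w + w') c
    rw [smul_add, map_add, hσ, hσ, map_add, smul_add] at h3
    obtain ⟨e1, e2⟩ := hli (σ w c - σ (w + w') c) (σ w' c - σ (w + w') c) (by
      rw [sub_smul, sub_smul]
      linear_combination (norm := module) h3)
    exact (sub_eq_zero.mp e1).trans (sub_eq_zero.mp e2).symm
  intro c
  obtain ⟨w₀, hw₀⟩ : ∃ w : V, w ≠ 0 := by
    haveI : Nontrivial V := Module.nontrivial_of_finrank_pos (R := K) (by omega)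
    exact exists_ne 0
  refine ⟨σ w₀ c, fun x => ?_⟩
  by_cases hx : x = 0
  · simp [hx]
  by_cases hdep : x ∈ (K ∙ w₀)
  · obtain ⟨z, -, hz⟩ := SetLike.exists_of_lt (lt_top_iff_ne_top.mpr (show (K ∙ w₀) ≠ ⊤ from fun h0 => by
      have := finrank_span_singleton (K := K) hw₀
      rw [h0, finrank_top] at this
      omega))
    have hz' : z ∉ (K ∙ x) := fun h0 => hz (Submodule.span_singleton_le_iff_mem _ _ |>.mpr hdep h0)
    rw [hσ, hind x z hx hz' c, ← hind w₀ z hw₀ hz c]
  · rw [hσ, hind w₀ x hw₀ hdep c]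

end Cfsg.Agent.MaxSub.ExtField

namespace Cfsg.Agent.MaxSub

open Matrix Cfsg.Geo Module
open scoped MatrixGroups Matrix

theorem subalgebraNormalizer_maximal_aux {F : Type*} [Field F] [Fintype F] {n r : ℕ} (hr : r.Prime) (hn4 : 4 ≤ n)
    (hne : r < n) {K : Type*} [Field K] [Finite K] [Algebra F K] (hfr : Module.finrank F K = r)
    (ψ : K →ₐ[F] Matrix (Fin n) (Fin n) F) (K₀ : Subalgebra F (Matrix (Fin n) (Fin n) F))
    (hψ : ∀ x, x ∈ K₀ ↔ ∃ c, ψ c = x) (hK : IsFieldSubalgebra r K₀) :
    IsCoatom (subalgebraNormalizer K₀) ∧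
      IsMaximalIn (specialLinear (Fin n) F) (subalgebraNormalizer K₀ ⊓ specialLinear (Fin n) F) := by
  classical
  haveI : Nonempty (Fin n) := ⟨⟨0, by omega⟩⟩
  haveI : Nontrivial (Fin n) := Fin.nontrivial_iff_two_le.2 (by omega)
  letI : Module K (Fin n → F) := Module.compHom (Fin n → F)
    ((Matrix.toLinAlgEquiv' : Matrix (Fin n) (Fin n) F ≃ₐ[F] _).toAlgHom.comp ψ).toRingHom
  have hsmul : ∀ (c : K) (v : Fin n → F), c • v = ψ c *ᵥ v := fun c v => rfl
  haveI : IsScalarTower F K (Fin n → F) := ⟨fun a c v => by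
    rw [hsmul, hsmul, map_smul, Matrix.smul_mulVec]⟩
  haveI : FiniteDimensional F K := Module.finite_of_finrank_pos (hfr ▸ hr.pos)
  haveI : FiniteDimensional K (Fin n → F) := Module.Finite.of_restrictScalars_finite F K _
  have hm : 2 ≤ finrank K (Fin n → F) := by
    have h := Module.finrank_mul_finrank F K (Fin n → F)
    rw [hfr, Module.finrank_fintype_fun_eq_card, Fintype.card_fin] at h
    by_contra h2
    rcases Nat.lt_or_ge (finrank K (Fin n → F)) 1 with h3 | h3
    · rw [Nat.lt_one_iff.mp h3] at h; omega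
    · rw [show finrank K (Fin n → F) = 1 by omega] at h; omega
  set e : GL (Fin n) F ≃* ((Fin n → F) ≃ₗ[F] (Fin n → F)) :=
    Matrix.GeneralLinearGroup.toLin.trans (LinearMap.GeneralLinearGroup.generalLinearEquiv F (Fin n → F)) with hedef
  have he : ∀ m v, e m v = (m : Matrix (Fin n) (Fin n) F) *ᵥ v := fun m v => by
    simp [hedef, Matrix.GeneralLinearGroup.toLin]
  have hdet : ∀ m, ((Matrix.GeneralLinearGroup.det m : Fˣ) : F) = LinearMap.det (e m).toLinearMap := fun m => by
    rw [show (e m).toLinearMap = Matrix.toLin' (m : Matrix (Fin n) (Fin n) F) from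
      LinearMap.ext fun v => by simp [he], LinearMap.det_toLin', Matrix.GeneralLinearGroup.val_det_apply]
  have hNmem : ∀ m : GL (Fin n) F, (∀ c : K, ∃ c' : K, ∀ x, e m (c • x) = c' • e m x) →
      m ∈ subalgebraNormalizer K₀ := by
    intro m hm'
    rw [mem_normalizer_iff_map_le]
    intro k hk
    obtain ⟨c, rfl⟩ := (hψ k).mp hk
    obtain ⟨c', hc'⟩ := hm' c
    have h1 : (m : Matrix (Fin n) (Fin n) F) * ψ c = ψ c' * (m : Matrix (Fin n) (Fin n) F) := by
      refine Matrix.toLin'.injective (LinearMap.ext fun x => ?_)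
      have := hc' x
      rw [he, he, hsmul, hsmul, Matrix.mulVec_mulVec, Matrix.mulVec_mulVec] at this
      rw [Matrix.toLin'_apply, Matrix.toLin'_apply]
      exact this
    rw [h1, mul_assoc, ← Units.val_mul, mul_inv_cancel, Units.val_one, mul_one]
    exact (hψ _).mpr ⟨c', rfl⟩
  have hlin : ∀ s : (Fin n → F) ≃ₗ[K] (Fin n → F), e.symm (s.restrictScalars F) ∈ subalgebraNormalizer K₀ ∧
      ((Matrix.GeneralLinearGroup.det (e.symm (s.restrictScalars F)) : Fˣ) : F) =
        Algebra.norm F (LinearEquiv.det s : K) := by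
    intro s
    refine ⟨hNmem _ fun c => ⟨c, fun x => ?_⟩, ?_⟩
    · rw [MulEquiv.apply_symm_apply]; exact s.map_smul c x
    · rw [hdet, MulEquiv.apply_symm_apply, LinearEquiv.coe_det, ← LinearMap.det_restrictScalars]
      rfl
  -- overgroups in `SL`
  have key : ∀ M : Subgroup (GL (Fin n) F), subalgebraNormalizer K₀ ⊓ specialLinear (Fin n) F ≤ M →
      ¬ M ≤ subalgebraNormalizer K₀ → specialLinear (Fin n) F ≤ M := by
    intro M hM hMN
    obtain ⟨g, hgM, hgN⟩ := SetLike.not_le_iff_exists.mp hMN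
    set G := M.map e.toMonoidHom with hG
    have hSL : ExtField.HasSL K G := by
      intro s hs
      refine ⟨e.symm (s.restrictScalars F), hM ⟨(hlin s).1, ?_⟩, e.apply_symm_apply _⟩
      show Matrix.GeneralLinearGroup.det _ = 1
      exact Units.ext (by rw [(hlin s).2, hs, Units.val_one])
    have hnot : ∃ h ∈ G, ∃ w : Fin n → F, w ≠ 0 ∧
        ∀ v, (ExtField.kline F K w).map h.toLinearMap ≠ ExtField.kline F K v := by
      refine ⟨e g, ⟨g, hgM, rfl⟩, ?_⟩
      by_contra hcon
      push Not at hcon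
      exact hgN (hNmem g (ExtField.semilinear_of_lines hm (e g) hcon))
    refine Cfsg.Agent.GeoClasses.specialLinear_le_of_transv_mem fun φ w hw => ?_
    obtain ⟨g', ⟨m', hm', rfl⟩, hgx⟩ := ExtField.all_transvections hfr hr hm hSL hnot φ w hw
    have heq : Cfsg.Agent.GeoClasses.transv φ w hw = m' := by
      refine Cfsg.Agent.GeoClasses.gl_ext_mulVec fun v => ?_
      rw [Cfsg.Agent.GeoClasses.transv_mulVec, ← he]
      exact (hgx v).symm
    rw [heq]; exact hm'
  have hnle : ¬ specialLinear (Fin n) F ≤ subalgebraNormalizer K₀ := by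
    intro hle
    obtain ⟨i, j, hij⟩ := exists_pair_ne (Fin n)
    have hw : (LinearMap.proj j : (Fin n → F) →ₗ[F] F) (Pi.single i 1) = 0 := by simp [hij.symm]
    refine Cfsg.Agent.ClassicalMax.transvec_not_mem_subalgebraNormalizer
      (g := Cfsg.Agent.GeoClasses.transv _ _ hw) (by rw [Fintype.card_fin]; omega) hr.one_lt hK
      ⟨hw, fun u => Cfsg.Agent.GeoClasses.transv_mulVec _ _ hw u⟩ (fun h => ?_) (by simp)
      (hle (Cfsg.Agent.GeoClasses.transv_mem_specialLinear _ _ _))
    have := LinearMap.congr_fun h (Pi.single j (1 : F))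
    simp at this
  refine ⟨⟨fun htop => hnle (htop ▸ le_top), fun M hM => ?_⟩, ⟨lt_of_le_not_ge inf_le_right fun h => hnle
    (h.trans inf_le_left), fun M hM hMS => ?_⟩⟩
  · have hSM := key M (inf_le_left.trans hM.le) hM.not_ge
    rw [eq_top_iff]
    intro g _
    haveI : Finite F := inferInstance
    obtain ⟨c, hc⟩ := FiniteField.unitsMap_norm_surjective F K (Matrix.GeneralLinearGroup.det g)
    obtain ⟨v, hv⟩ := exists_ne (0 : Fin n → F)
    obtain ⟨Φ, hΦ⟩ := ExtField.exists_dual_eq_one_aux (K := K) hv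
    have hd : LinearMap.det (LinearMap.transvection Φ (((c : K) - 1) • v)) = (c : K) := by
      rw [LinearMap.transvection.det, map_smul, hΦ, smul_eq_mul, mul_one, add_sub_cancel]
    set s := LinearMap.equivOfDetNeZero _ (by rw [hd]; exact c.ne_zero) with hsdef
    have hsd : (LinearEquiv.det s : K) = (c : K) := by
      rw [LinearEquiv.coe_det]; exact hd
    have h1 : g * (e.symm (s.restrictScalars F))⁻¹ ∈ M := hSM (by
      show Matrix.GeneralLinearGroup.det _ = 1
      rw [map_mul, map_inv, mul_inv_eq_one]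
      exact Units.ext (by rw [(hlin s).2, hsd, ← hc]; rfl))
    simpa using M.mul_mem h1 (hM.le (hlin s).1)
  · by_cases hMN : M ≤ subalgebraNormalizer K₀
    · exact Or.inl (le_antisymm (le_inf hMN hMS) hM)
    · exact Or.inr (le_antisymm hMS (key M hM hMN))


theorem subalgebraNormalizer_maximal {F : Type*} [Field F] [Fintype F] {n r : ℕ} (hr : r.Prime) (hrn : r ∣ n)
    (hlt : r < n) (K : Subalgebra F (Matrix (Fin n) (Fin n) F)) (hK : IsFieldSubalgebra r K) :
    IsCoatom (subalgebraNormalizer K) ∧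
      IsMaximalIn (specialLinear (Fin n) F) (subalgebraNormalizer K ⊓ specialLinear (Fin n) F) := by
  have hn4 : 4 ≤ n := by
    obtain ⟨k, rfl⟩ := hrn
    have := hr.two_le
    have : 2 ≤ k := by
      rcases k with _ | _ | k <;> simp at hlt ⊢
    nlinarith
  haveI : Nonempty (Fin n) := ⟨⟨0, by omega⟩⟩
  letI : Field K := (isField_of_isFieldSubalgebra hK).toField
  haveI : Finite K := Finite.of_injective (fun x : K => (x : Matrix (Fin n) (Fin n) F)) Subtype.val_injective
  exact subalgebraNormalizer_maximal_aux hr hn4 hlt (K := K) hK.finrank_eq K.val K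
    (fun x => ⟨fun hx => ⟨⟨x, hx⟩, rfl⟩, fun ⟨c, hc⟩ => hc ▸ c.2⟩) hK

end Cfsg.Agent.MaxSub
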