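import Cfsg.Agent.MaxSub.ExtField.Basic

/-!
An overgroup moving some `K`-line off the spread gives two members meeting in a hyperplane.
-/

set_option autoImplicit false
set_option linter.style.haveILetI false
set_option linter.unusedSectionVars false

namespace Cfsg.Agent.MaxSub.ExtField

open Module

variable {F K V : Type*} [Field F] [Field K] [Algebra F K] [AddCommGroup V] [Module F V] [Module K V]
  [IsScalarTower F K V]

/-- The `K`-line of `v`, over `F`. -/
def kline (F K : Type*) {V : Type*} [Field F] [Field K] [Algebra F K] [AddCommGroup V] [Module F V] [Module K V]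
    [IsScalarTower F K V] (v : V) : Submodule F V := (K ∙ v).restrictScalars F

theorem mem_kline {v x : V} : x ∈ kline F K v ↔ ∃ c : K, c • v = x := by
  rw [kline, Submodule.restrictScalars_mem, Submodule.mem_span_singleton]

theorem self_mem_kline (v : V) : v ∈ kline F K v := mem_kline.mpr ⟨1, one_smul K v⟩

theorem smul_mem_kline {v x : V} (h : x ∈ kline F K v) (c : K) : c • x ∈ kline F K v := by
  obtain ⟨b, rfl⟩ := mem_kline.mp h
  exact mem_kline.mpr ⟨c * b, (smul_smul c b v).symm⟩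

theorem finrank_kline {v : V} (hv : v ≠ 0) : finrank F (kline F K v) = finrank F K := by
  let f : K →ₗ[F] V := (LinearMap.toSpanSingleton K V v).restrictScalars F
  have hf : LinearMap.range f = kline F K v := by
    ext x; simp [f, mem_kline]
  rw [← hf, LinearMap.finrank_range_of_inj (smul_left_injective K hv)]

/-- A member: an image of a line. -/
def IsMember (K : Type*) [Field K] [Algebra F K] [Module K V] [IsScalarTower F K V]
    (G : Subgroup (V ≃ₗ[F] V)) (U : Submodule F V) : Prop :=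
  ∃ h ∈ G, ∃ w : V, w ≠ 0 ∧ U = (kline F K w).map h.toLinearMap

/-- The data of a member and a line meeting in a hyperplane, with the elations of the member. -/
structure PairData (K : Type*) [Field K] [Algebra F K] [Module K V] [IsScalarTower F K V]
    (G : Subgroup (V ≃ₗ[F] V)) where
  v : V
  U : Submodule F V
  A : K →ₗ[F] (V →ₗ[F] V)
  x₀ : V
  k₀ : K
  v_ne : v ≠ 0
  U_finrank : finrank F U = finrank F K
  inf_finrank : finrank F (U ⊓ kline F K v : Submodule F V) + 1 = finrank F K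
  x₀_mem : x₀ ∈ kline F K v
  x₀_not : x₀ ∉ U
  A_mem : ∀ k, Mem G (A k)
  A_range : ∀ k x, A k x ∈ U
  A_kill : ∀ k, ∀ x ∈ U, A k x = 0
  A_surj : ∀ k, k ≠ 0 → ∀ y ∈ U, ∃ x, A k x = y
  A_param : ∀ y ∈ U, ∃ k, A k x₀ = y
  k₀_ne : A k₀ x₀ ≠ 0
  A_stab : ∀ x ∈ kline F K v, A k₀ x ∈ kline F K v

variable {G : Subgroup (V ≃ₗ[F] V)}

theorem exists_pairData [FiniteDimensional F V] [FiniteDimensional F K] [FiniteDimensional K V] {r : ℕ}
    (hr : finrank F K = r) (hp : r.Prime) (hSL : HasSL K G)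
    (hnot : ∃ h ∈ G, ∃ w : V, w ≠ 0 ∧ ∀ v, (kline F K w).map h.toLinearMap ≠ kline F K v) :
    Nonempty (PairData K G) := by
  classical
  have hUfin : ∀ U, IsMember K G U → finrank F U = r := by
    rintro U ⟨h, -, w, hw, rfl⟩
    rw [LinearEquiv.finrank_map_eq, finrank_kline hw, hr]
  let P : ℕ → Prop := fun e => ∃ (U : Submodule F V) (v : V), IsMember K G U ∧ v ≠ 0 ∧ U ≠ kline F K v ∧
    finrank F (U ⊓ kline F K v : Submodule F V) = e
  obtain ⟨h₀, hh₀, w₀, hw₀, hne₀⟩ := hnot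
  obtain ⟨e₀, he₀, he₀1⟩ : ∃ e, P e ∧ 1 ≤ e := by
    refine ⟨_, ⟨(kline F K w₀).map h₀.toLinearMap, h₀ w₀, ⟨h₀, hh₀, w₀, hw₀, rfl⟩, by simpa using hw₀,
      hne₀ _, rfl⟩, ?_⟩
    rw [Nat.one_le_iff_ne_zero, Ne, Submodule.finrank_eq_zero, ← Ne, Submodule.ne_bot_iff]
    exact ⟨h₀ w₀, ⟨Submodule.mem_map_of_mem (self_mem_kline w₀), self_mem_kline _⟩, by simpa using hw₀⟩
  have hPlt : ∀ e, P e → e < r := by
    rintro e ⟨U, v, hU, hv, hne, rfl⟩
    by_contra hge
    apply hne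
    have h1 : (U ⊓ kline F K v : Submodule F V) = U :=
      Submodule.eq_of_le_of_finrank_le inf_le_left (by rw [hUfin U hU]; omega)
    have h2 : (U ⊓ kline F K v : Submodule F V) = kline F K v :=
      Submodule.eq_of_le_of_finrank_le inf_le_right (by rw [finrank_kline hv, hr]; omega)
    exact h1.symm.trans h2
  set dm := Nat.findGreatest P r with hdm
  have hdP : P dm := Nat.findGreatest_spec (hPlt e₀ he₀).le he₀
  have hd1 : 1 ≤ dm := he₀1.trans (Nat.le_findGreatest (hPlt e₀ he₀).le he₀)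
  have hmax : ∀ e, P e → e ≤ dm := fun e he => Nat.le_findGreatest (hPlt e he).le he
  have hdr := hPlt dm hdP
  obtain ⟨U, v, hU, hv, hne, hde⟩ := hdP
  obtain ⟨h, hh, w, hw, hUh⟩ := id hU
  set L := kline F K v with hL
  set D : Submodule F V := U ⊓ L with hD
  have hmemU : ∀ y, y ∈ U ↔ ∃ c : K, h (c • w) = y := by
    intro y
    rw [hUh, Submodule.mem_map]
    constructor
    · rintro ⟨z, hz, rfl⟩
      obtain ⟨c, rfl⟩ := mem_kline.mp hz
      exact ⟨c, rfl⟩
    · rintro ⟨c, rfl⟩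
      exact ⟨c • w, mem_kline.mpr ⟨c, rfl⟩, rfl⟩
  -- the elations of `U`
  let mk : (V →ₗ[K] K) → K →ₗ[F] (V →ₗ[F] V) := fun Φ =>
    { toFun := fun k => h.toLinearMap ∘ₗ ((k • Φ).smulRight w).restrictScalars F ∘ₗ (h⁻¹ : V ≃ₗ[F] V).toLinearMap
      map_add' := fun k k' => LinearMap.ext fun x => by simp [add_smul, add_mul, map_add]
      map_smul' := fun c k => LinearMap.ext fun x => by simp [smul_assoc, smul_mul_assoc] }
  have hmk : ∀ Φ k x, mk Φ k x = h ((k * Φ (h⁻¹ x)) • w) := fun Φ k x => rfl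
  have hMem : ∀ Φ, Φ w = 0 → ∀ k, Mem G (mk Φ k) := fun Φ hΦ k =>
    (mem_elation hSL w (k • Φ) (by simp [hΦ])).conj hh
  have hinvmem : ∀ y ∈ U, ∃ c : K, h⁻¹ y = c • w := fun y hy => by
    obtain ⟨c, rfl⟩ := (hmemU y).mp hy
    exact ⟨c, inv_apply_self h _⟩
  -- a point of `L` outside `U`
  have hnle : ¬ L ≤ U := fun hle => hne
    (Submodule.eq_of_le_of_finrank_le hle (by rw [hUfin U hU, finrank_kline hv, hr])).symm
  obtain ⟨x₀, hx₀L, hx₀U⟩ := SetLike.not_le_iff_exists.mp hnle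
  have hy₀ : h⁻¹ x₀ ∉ (K ∙ w) := fun hc => by
    obtain ⟨c, hc⟩ := Submodule.mem_span_singleton.mp hc
    exact hx₀U ((hmemU x₀).mpr ⟨c, by rw [hc, self_inv_apply]⟩)
  -- elations with `x₀ ↦ D` fix `L`
  have hstab : ∀ Φ, Φ w = 0 → ∀ k, mk Φ k x₀ ∈ D → ∀ x ∈ L, mk Φ k x ∈ D := by
    intro Φ hΦ k hk x hx
    obtain ⟨a, ha, hax⟩ := hMem Φ hΦ k
    set L' := L.map a.toLinearMap
    have hL'm : IsMember K G L' := ⟨a, ha, v, hv, rfl⟩
    have hfix : ∀ y ∈ U, a y = y := fun y hy => by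
      obtain ⟨c, hc⟩ := hinvmem y hy
      rw [hax, hmk, hc, LinearMap.map_smul Φ, hΦ, smul_zero, mul_zero, zero_smul, map_zero, add_zero]
    by_cases heq : L' = L
    · refine ⟨?_, ?_⟩
      · rw [hmk]; exact (hmemU _).mpr ⟨_, rfl⟩
      · have h1 : a x ∈ L := heq ▸ Submodule.mem_map_of_mem hx
        rw [hax] at h1
        exact (Submodule.add_mem_iff_right L hx).mp h1
    · exfalso
      have hDle : D ≤ L' ⊓ L := fun y hy => ⟨⟨y, hy.2, hfix y hy.1⟩, hy.2⟩
      have hle := hmax _ ⟨L', v, hL'm, hv, heq, rfl⟩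
      have hD' := Submodule.eq_of_le_of_finrank_le hDle (by rw [hde]; exact hle)
      have hax₀ : a x₀ ∈ D := by
        rw [hD']
        exact ⟨Submodule.mem_map_of_mem hx₀L, by rw [hax]; exact L.add_mem hx₀L hk.2⟩
      rw [hax] at hax₀
      exact hx₀U ((Submodule.add_mem_iff_left D hk).mp hax₀).1
  obtain ⟨Φ₁, hΦ₁0, hΦ₁w⟩ := Submodule.exists_dual_map_eq_bot_of_notMem hy₀ inferInstance
  have hΦ₁w' : Φ₁ w = 0 := (Submodule.eq_bot_iff _).mp hΦ₁w _ ⟨w, Submodule.mem_span_singleton_self w, rfl⟩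
  let Φ₀ : V →ₗ[K] K := (Φ₁ (h⁻¹ x₀))⁻¹ • Φ₁
  have hΦ₀w : Φ₀ w = 0 := by simp [Φ₀, hΦ₁w']
  have hΦ₀y : Φ₀ (h⁻¹ x₀) = 1 := inv_mul_cancel₀ hΦ₁0
  -- the parameters of `D`
  let J : Submodule F K := D.comap (h.toLinearMap ∘ₗ (LinearMap.toSpanSingleton K V w).restrictScalars F)
  have hJ : ∀ c, c ∈ J ↔ h (c • w) ∈ D := fun c => Iff.rfl
  obtain ⟨z, hzD, hz0⟩ := (Submodule.ne_bot_iff D).mp fun hb => by
    rw [hb, finrank_bot] at hde; omega
  obtain ⟨k₀, rfl⟩ := (hmemU z).mp hzD.1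
  have hk₀J : k₀ ∈ J := hzD
  -- `D` is a hyperplane of `L`
  have hd : dm + 1 = r := by
    by_contra hne1
    have hlt : dm + 2 ≤ r := by omega
    have hnle2 : ¬ L ≤ D ⊔ (F ∙ x₀) := fun hle => by
      have := (Submodule.finrank_mono hle).trans (Submodule.finrank_add_le_finrank_add_finrank _ _)
      rw [finrank_kline hv, hr, hde, finrank_span_singleton (fun h0 : x₀ = 0 => hx₀U (h0 ▸ U.zero_mem))] at this
      omega
    obtain ⟨x₁, hx₁L, hx₁⟩ := SetLike.not_le_iff_exists.mp hnle2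
    obtain ⟨Φ, hΦw, hΦ0, hΦ1⟩ : ∃ Φ : V →ₗ[K] K, Φ w = 0 ∧ Φ (h⁻¹ x₀) = 1 ∧
        Φ (h⁻¹ x₁) ∉ Set.range (algebraMap F K) := by
      by_cases hdep : h⁻¹ x₁ ∈ Submodule.span K {w, h⁻¹ x₀}
      · refine ⟨Φ₀, hΦ₀w, hΦ₀y, ?_⟩
        obtain ⟨a, b, hab⟩ := Submodule.mem_span_pair.mp hdep
        rw [← hab, map_add, map_smul, map_smul, hΦ₀w, hΦ₀y, smul_zero, zero_add, smul_eq_mul, mul_one]
        rintro ⟨c, rfl⟩
        apply hx₁
        have e : x₁ = h (a • w) + c • x₀ := by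
          have := congrArg h hab
          rw [self_inv_apply, algebraMap_smul, map_add, h.map_smul c (h⁻¹ x₀), self_inv_apply] at this
          exact this.symm
        refine Submodule.mem_sup.mpr ⟨h (a • w), ⟨(hmemU _).mpr ⟨a, rfl⟩, ?_⟩, c • x₀,
          Submodule.smul_mem _ c (Submodule.mem_span_singleton_self x₀), e.symm⟩
        have h3 : x₁ - c • x₀ ∈ L := L.sub_mem hx₁L (L.smul_mem c hx₀L)
        rwa [e, add_sub_cancel_right] at h3
      · obtain ⟨Ψ, hΨ1, hΨ0⟩ := Submodule.exists_dual_map_eq_bot_of_notMem hdep inferInstance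
        have hΨ : ∀ y ∈ Submodule.span K {w, h⁻¹ x₀}, Ψ y = 0 := fun y hy =>
          (Submodule.eq_bot_iff _).mp hΨ0 _ ⟨y, hy, rfl⟩
        have hnt : ∃ c : K, c ∉ Set.range (algebraMap F K) := by
          by_contra hall
          push Not at hall
          have hle := LinearMap.finrank_range_le (Algebra.linearMap F K)
          rw [LinearMap.range_eq_top.mpr (fun c => by obtain ⟨a, ha⟩ := hall c; exact ⟨a, ha⟩), finrank_top,
            Module.finrank_self, hr] at hle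
          have := hp.two_le; omega
        obtain ⟨c, hc⟩ := hnt
        refine ⟨Φ₀ + ((c - Φ₀ (h⁻¹ x₁)) / Ψ (h⁻¹ x₁)) • Ψ, ?_, ?_, ?_⟩
        · simp [hΦ₀w, hΨ w (Submodule.subset_span (Set.mem_insert _ _))]
        · show Φ₀ (h⁻¹ x₀) + ((c - Φ₀ (h⁻¹ x₁)) / Ψ (h⁻¹ x₁)) • Ψ (h⁻¹ x₀) = 1
          rw [hΦ₀y, hΨ _ (Submodule.subset_span (Set.mem_insert_of_mem _ rfl)), smul_zero, add_zero]
        · show Φ₀ _ + _ * Ψ _ ∉ _
          rw [div_mul_cancel₀ _ hΨ1, add_sub_cancel]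
          exact hc
    -- `J` is stable under multiplication by `Φ x₁`
    have hmul : ∀ c ∈ J, Φ (h⁻¹ x₁) * c ∈ J := by
      intro c hc
      have h1 : mk Φ c x₀ ∈ D := by rw [hmk, hΦ0, mul_one]; exact hc
      have h2 := hstab Φ hΦw c h1 x₁ hx₁L
      rw [hmk, mul_comm] at h2
      exact h2
    let S : Subalgebra F K :=
      { carrier := {t | ∀ c ∈ J, t * c ∈ J}
        mul_mem' := fun {a b} ha hb c hc => by rw [mul_assoc]; exact ha _ (hb c hc)
        one_mem' := fun c hc => by rwa [one_mul]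
        add_mem' := fun {a b} ha hb c hc => by rw [add_mul]; exact J.add_mem (ha c hc) (hb c hc)
        zero_mem' := fun c hc => by rw [zero_mul]; exact J.zero_mem
        algebraMap_mem' := fun a c hc => by rw [← Algebra.smul_def]; exact J.smul_mem a hc }
    haveI := Subalgebra.isSimpleOrder_of_finrank_prime F K (hr ▸ hp)
    rcases IsSimpleOrder.eq_bot_or_eq_top S with hS | hS
    · exact hΦ1 (Algebra.mem_bot.mp (hS ▸ hmul : Φ (h⁻¹ x₁) ∈ (⊥ : Subalgebra F K)))
    · have hk0 : k₀ ≠ 0 := fun h0 => hz0 (by simp [h0])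
      have hle : U ≤ D := fun y hy => by
        obtain ⟨c, rfl⟩ := (hmemU y).mp hy
        have h2 : c * k₀⁻¹ ∈ S := hS ▸ trivial
        exact (hJ c).mp (by simpa [mul_assoc, inv_mul_cancel₀ hk0] using h2 k₀ hk₀J)
      have := Submodule.finrank_mono hle
      rw [hUfin U hU, hde] at this
      omega
  refine ⟨{ v := v, U := U, A := mk Φ₀, x₀ := x₀, k₀ := k₀, v_ne := hv
            U_finrank := by rw [hUfin U hU, hr]
            inf_finrank := by rw [← hL, ← hD, hde, hd, hr]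
            x₀_mem := hx₀L, x₀_not := hx₀U, A_mem := hMem Φ₀ hΦ₀w
            A_range := fun k x => by rw [hmk]; exact (hmemU _).mpr ⟨_, rfl⟩
            A_kill := fun k x hx => by
              obtain ⟨c, hc⟩ := hinvmem x hx
              rw [hmk, hc, LinearMap.map_smul Φ₀, hΦ₀w, smul_zero, mul_zero, zero_smul, map_zero]
            A_surj := fun k hk y hy => by
              obtain ⟨c, rfl⟩ := (hmemU y).mp hy
              refine ⟨h ((k⁻¹ * c) • h⁻¹ x₀), ?_⟩
              rw [hmk, inv_apply_self, LinearMap.map_smul Φ₀, hΦ₀y, smul_eq_mul, mul_one, mul_inv_cancel_left₀ hk]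
            A_param := fun y hy => by
              obtain ⟨c, rfl⟩ := (hmemU y).mp hy
              exact ⟨c, by rw [hmk, hΦ₀y, mul_one]⟩
            k₀_ne := by rw [hmk, hΦ₀y, mul_one]; exact hz0
            A_stab := fun x hx => (hstab Φ₀ hΦ₀w k₀ (by rw [hmk, hΦ₀y, mul_one]; exact hzD) x hx).2 }⟩

end Cfsg.Agent.MaxSub.ExtField
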