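import Cfsg.Agent.MaxSub.ExtField.Pair

/-!
A transvection from two members meeting in a hyperplane.
-/

set_option autoImplicit false
set_option linter.style.haveILetI false
set_option linter.unusedSectionVars false

namespace Cfsg.Agent.MaxSub.ExtField

open Module

variable {F K V : Type*} [Field F] [Field K] [Algebra F K] [AddCommGroup V] [Module F V] [Module K V]
  [IsScalarTower F K V]

/-- A transvection with centre in a line and axis containing it. -/
def HasLineTransvec (K : Type*) [Field K] [Algebra F K] [Module K V] [IsScalarTower F K V]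
    (G : Subgroup (V ≃ₗ[F] V)) : Prop :=
  ∃ (v y : V) (φ : V →ₗ[F] F), v ≠ 0 ∧ y ∈ kline F K v ∧ y ≠ 0 ∧ φ ≠ 0 ∧ (∀ x ∈ kline F K v, φ x = 0) ∧
    Mem G (rk1 φ y)

theorem exists_dual_eq_one_aux {W : Type*} [AddCommGroup W] [Module K W] {v : W} (hv : v ≠ 0) :
    ∃ Ψ : W →ₗ[K] K, Ψ v = 1 := by
  obtain ⟨Ψ, hΨ, -⟩ := Submodule.exists_dual_map_eq_bot_of_notMem
    (p := (⊥ : Submodule K W)) (by simpa using hv) inferInstance
  exact ⟨(Ψ v)⁻¹ • Ψ, inv_mul_cancel₀ hΨ⟩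

theorem hyperplane_decomp [FiniteDimensional F V] {D L : Submodule F V} (hle : D ≤ L)
    (hdim : finrank F D + 1 = finrank F L) {x₀ : V} (hx : x₀ ∈ L) (φ : V →ₗ[F] F) (hD : ∀ z ∈ D, φ z = 0)
    (h1 : φ x₀ = 1) : ∀ x ∈ L, x - φ x • x₀ ∈ D := by
  intro x hxL
  have hlt : D < D ⊔ (F ∙ x₀) := lt_of_le_of_ne le_sup_left fun he => by
    have hx' : x₀ ∈ D := he ▸ Submodule.mem_sup_right (Submodule.mem_span_singleton_self x₀)
    exact one_ne_zero (h1.symm.trans (hD _ hx'))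
  have heq : D ⊔ (F ∙ x₀) = L := Submodule.eq_of_le_of_finrank_le
    (sup_le hle ((Submodule.span_singleton_le_iff_mem _ _).mpr hx))
    (by have := Submodule.finrank_lt_finrank_of_lt hlt; omega)
  obtain ⟨z, hz, w, hw, rfl⟩ := Submodule.mem_sup.mp (heq.symm ▸ hxL)
  obtain ⟨c, rfl⟩ := Submodule.mem_span_singleton.mp hw
  rw [map_add, hD z hz, zero_add, map_smul, h1, smul_eq_mul, mul_one, add_sub_cancel_right]
  exact hz

variable {G : Subgroup (V ≃ₗ[F] V)}

theorem hasLineTransvec_of_pair [FiniteDimensional F V] [FiniteDimensional F K] [FiniteDimensional K V] [Finite K]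
    {r : ℕ} (hr : finrank F K = r) (hp : r.Prime) (hSL : HasSL K G) (P : PairData K G)
    (hsmall : r = 2 → finrank K V < 3 → (∀ t : F, t = 0 ∨ t = 1) → HasLineTransvec K G) :
    HasLineTransvec K G := by
  classical
  set L := kline F K P.v with hLdef
  set D : Submodule F V := P.U ⊓ L with hD
  set A := P.A P.k₀ with hA
  set d := A P.x₀ with hd
  have hdU : d ∈ P.U := P.A_range _ _
  have hdL : d ∈ L := P.A_stab _ P.x₀_mem
  have hd0 : d ≠ 0 := P.k₀_ne
  have hr2 := hp.two_le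
  have hLfin : finrank F L = r := by rw [hLdef, finrank_kline P.v_ne, hr]
  have hDfin : finrank F D + 1 = r := by rw [hD, hLdef, P.inf_finrank, hr]
  have hnle : ¬ P.U ≤ L := fun hle => by
    have h2 : r ≤ finrank F D := by
      rw [← P.U_finrank.trans hr]
      exact Submodule.finrank_mono (le_inf le_rfl hle)
    omega
  obtain ⟨u, huU, huL⟩ := SetLike.not_le_iff_exists.mp hnle
  obtain ⟨φ₁, hφ₁0, hφ₁D⟩ := Submodule.exists_dual_map_eq_bot_of_notMem
    (show P.x₀ ∉ D from fun h => P.x₀_not h.1) inferInstance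
  obtain ⟨χ₁, hχ₁0, hχ₁L⟩ := Submodule.exists_dual_map_eq_bot_of_notMem huL inferInstance
  set φ := (φ₁ P.x₀)⁻¹ • φ₁ with hφdef
  set χ := (χ₁ u)⁻¹ • χ₁ with hχdef
  have hφD : ∀ z ∈ D, φ z = 0 := fun z hz => by
    have := (Submodule.eq_bot_iff _).mp hφ₁D _ ⟨z, hz, rfl⟩
    simp [hφdef, this]
  have hφx : φ P.x₀ = 1 := inv_mul_cancel₀ hφ₁0
  have hχL : ∀ z ∈ L, χ z = 0 := fun z hz => by
    have := (Submodule.eq_bot_iff _).mp hχ₁L _ ⟨z, hz, rfl⟩
    simp [hχdef, this]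
  have hχu : χ u = 1 := inv_mul_cancel₀ hχ₁0
  have hLdec := hyperplane_decomp (D := D) (inf_le_right : D ≤ L) (by omega) P.x₀_mem φ hφD hφx
  have hUdec := hyperplane_decomp (D := D) (inf_le_left : D ≤ P.U) (by rw [P.U_finrank, hr]; omega) huU χ
    (fun z hz => hχL z hz.2) hχu
  set ψ := χ.comp A with hψ
  have hAD : ∀ z ∈ D, A z = 0 := fun z hz => P.A_kill _ z hz.1
  have hAL : ∀ x ∈ L, A x = φ x • d := fun x hx => by
    have := hAD _ (hLdec x hx)
    rwa [map_sub, map_smul, sub_eq_zero] at this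
  -- the commutator with `1 + t A`
  have hdelta : ∀ X : V →ₗ[F] V, (∀ x ∈ L, X x = 0) → (∀ x, X x ∈ L) → Mem G X → ∀ t : F,
      Mem G (t • (rk1 (φ.comp X) d - rk1 ψ (X u)) - t ^ 2 • (φ (X u) • rk1 ψ d)) := by
    intro X hXL hXim hX t
    obtain ⟨a, ha, hax⟩ := P.A_mem (t • P.k₀)
    have hax' : ∀ x, a x = x + t • A x := fun x => by rw [hax, map_smul]; rfl
    have hainv : ∀ x, a⁻¹ x = x - t • A x := fun x => a.injective (by
      rw [self_inv_apply, hax', map_sub, map_smul, P.A_kill _ _ (P.A_range _ _), smul_zero, sub_zero,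
        sub_add_cancel])
    have hconjL : ∀ x, (a.toLinearMap ∘ₗ X ∘ₗ (a⁻¹ : V ≃ₗ[F] V).toLinearMap) x ∈ L := fun x => by
      show a (X (a⁻¹ x)) ∈ L
      rw [hax', hAL _ (hXim _)]
      exact L.add_mem (hXim _) (L.smul_mem _ (L.smul_mem _ hdL))
    have h2 : Mem G (-X) := hX.neg fun x => hXL _ (hXim x)
    refine (Mem.add (hX.conj ha) h2 fun x => ?_).congr fun x => ?_
    · show a (X (a⁻¹ ((-X) x))) = 0
      have h3 : a⁻¹ ((-X) x) ∈ L := by
        rw [hainv, hAL _ (show (-X) x ∈ L from L.neg_mem (hXim x))]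
        exact L.sub_mem (L.neg_mem (hXim x)) (L.smul_mem _ (L.smul_mem _ hdL))
      rw [hXL _ h3, map_zero]
    · show a (X (a⁻¹ x)) + (-X x) =
        t • (φ (X x) • d - ψ x • X u) - t ^ 2 • (φ (X u) • ψ x • d)
      have hXA : X (A x) = ψ x • X u := by
        have h4 := hXL _ (hUdec (A x) (P.A_range _ _)).2
        rwa [map_sub, map_smul, sub_eq_zero] at h4
      rw [hainv, map_sub, map_smul, hXA, hax', hAL _ (L.sub_mem (hXim _) (L.smul_mem _ (L.smul_mem _ (hXim u)))),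
        map_sub, map_smul, map_smul]
      simp only [smul_eq_mul]
      module
  let InM : (V →ₗ[F] V) → Prop := fun X => (∀ x ∈ L, X x = 0) ∧ (∀ x, X x ∈ L) ∧ Mem G X
  by_cases hlin : ∃ X, InM X ∧ ∃ (c : K) (x : V), X (c • x) ≠ c • X x
  · -- a map which is not `K`-linear
    obtain ⟨X, ⟨hXL, hXim, hX⟩, c, x, hcx⟩ := hlin
    obtain ⟨e, he⟩ := mem_kline.mp (hXim u)
    have huv : u ∉ (K ∙ P.v) := huL
    obtain ⟨Φ₁, hΦu, hΦv⟩ := Submodule.exists_dual_map_eq_bot_of_notMem huv inferInstance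
    set Φ := (e * (Φ₁ u)⁻¹) • Φ₁ with hΦdef
    have hΦL : ∀ z ∈ L, Φ z = 0 := fun z hz => by
      have := (Submodule.eq_bot_iff _).mp hΦv _ ⟨z, hz, rfl⟩
      simp [hΦdef, this]
    set B : V →ₗ[F] V := (Φ.smulRight P.v).restrictScalars F with hB
    have hBmem : Mem G B := mem_elation hSL P.v Φ (hΦL _ (self_mem_kline _))
    have hBL : ∀ z ∈ L, B z = 0 := fun z hz => by simp [hB, hΦL z hz]
    have hBim : ∀ z, B z ∈ L := fun z => mem_kline.mpr ⟨Φ z, rfl⟩
    set Y := X + -B with hY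
    have hYL : ∀ z ∈ L, Y z = 0 := fun z hz => by simp [hY, hXL z hz, hBL z hz]
    have hYim : ∀ z, Y z ∈ L := fun z => by
      rw [hY]; exact L.add_mem (hXim z) (L.neg_mem (hBim z))
    have hYmem : Mem G Y := Mem.add hX (hBmem.neg fun z => hBL _ (hBim z)) fun z => hXL _ (L.neg_mem (hBim z))
    have hYu : Y u = 0 := by
      have : B u = X u := by
        show ((e * (Φ₁ u)⁻¹) * Φ₁ u) • P.v = X u
        rw [mul_assoc, inv_mul_cancel₀ hΦu, mul_one, he]
      simp [hY, this]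
    obtain ⟨x', hx'⟩ : ∃ x', Y x' ≠ 0 := by
      by_contra hall
      push Not at hall
      apply hcx
      have hXB : ∀ z, X z = B z := fun z => eq_of_sub_eq_zero (by simpa [hY, sub_eq_add_neg] using hall z)
      rw [hXB, hXB]
      exact (Φ.smulRight P.v).map_smul c x
    obtain ⟨b, hb⟩ := mem_kline.mp (hYim x')
    obtain ⟨b₀, hb₀⟩ := mem_kline.mp P.x₀_mem
    let g : K →+ F := φ.toAddMonoidHom.comp ((LinearMap.toSpanSingleton K V (Y x')).toAddMonoidHom)
    have hg0 : g ≠ 0 := fun h0 => by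
      have h5 : g (b₀ / b) = 0 := by rw [h0]; rfl
      have hbne : b ≠ 0 := fun h => hx' (by rw [← hb, h, zero_smul])
      change φ ((b₀ / b) • Y x') = 0 at h5
      rw [← hb, smul_smul, div_mul_cancel₀ _ hbne, hb₀, hφx] at h5
      exact one_ne_zero h5
    obtain ⟨ν, hν, hνne⟩ := exists_norm_one_functional hr hr2 g hg0
    obtain ⟨Φ₂, hΦ₂v⟩ : ∃ Φ₂ : V →ₗ[K] K, Φ₂ P.v = 1 := by
      obtain ⟨Ψ, hΨ⟩ := exists_dual_eq_one_aux (K := K) P.v_ne
      exact ⟨Ψ, hΨ⟩
    obtain ⟨gd, hgd, hgdx⟩ := exists_dilation hSL P.v Φ₂ hΦ₂v ν hν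
    have hν0 : ν ≠ 0 := fun h0 => by simp [h0] at hν
    have hYν : ∀ z, gd (Y (gd⁻¹ z)) = ν • Y z := by
      intro z
      have e1 : Y (gd⁻¹ z) = Y z := by
        rw [(hgdx z).2, map_add, hYL _ (smul_mem_kline (self_mem_kline _) _), add_zero]
      obtain ⟨f, hf⟩ := mem_kline.mp (hYim z)
      rw [e1, (hgdx _).1, ← hf, LinearMap.map_smul Φ₂, hΦ₂v, smul_eq_mul, mul_one, smul_smul, ← add_smul]
      congr 1
      ring
    set Y' := gd.toLinearMap ∘ₗ Y ∘ₗ (gd⁻¹ : V ≃ₗ[F] V).toLinearMap with hY'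
    have hY'x : ∀ z, Y' z = ν • Y z := hYν
    have h6 := hdelta Y' (fun z hz => by rw [hY'x, hYL z hz, smul_zero])
      (fun z => by rw [hY'x]; exact smul_mem_kline (hYim z) ν) (hYmem.conj hgd) 1
    have hY'u : Y' u = 0 := by rw [hY'x, hYu, smul_zero]
    refine ⟨P.v, d, φ.comp Y', P.v_ne, hdL, hd0, fun h0 => hνne ?_, fun z hz => ?_, h6.congr fun z => ?_⟩
    · have := LinearMap.congr_fun h0 x'
      rwa [LinearMap.comp_apply, hY'x] at this
    · rw [LinearMap.comp_apply, hY'x, hYL z hz, smul_zero, map_zero]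
    · simp [hY'u]
  -- all maps are `K`-linear
  push Not at hlin
  have hline : ∀ (Z : V →ₗ[F] V), (∀ (c : K) x, Z (c • x) = c • Z x) → ∀ x, Z x ≠ 0 →
      ∀ S : Submodule F V, (∀ z, Z z ∈ S) → r ≤ finrank F S := by
    intro Z hZ x hx S hS
    rw [← hr, ← finrank_kline (F := F) (K := K) hx]
    refine Submodule.finrank_mono fun y hy => ?_
    obtain ⟨c, rfl⟩ := mem_kline.mp hy
    rw [← hZ]; exact hS _
  have hDel : ∀ (Φ : V →ₗ[K] K), (∀ z ∈ L, Φ z = 0) → ∀ t : F, ∀ (c : K) x,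
      (t • (rk1 (φ.comp ((Φ.smulRight P.v).restrictScalars F)) d - rk1 ψ (Φ u • P.v)) -
        t ^ 2 • (φ (Φ u • P.v) • rk1 ψ d)) (c • x) =
      c • (t • (rk1 (φ.comp ((Φ.smulRight P.v).restrictScalars F)) d - rk1 ψ (Φ u • P.v)) -
        t ^ 2 • (φ (Φ u • P.v) • rk1 ψ d)) x := by
    intro Φ hΦ t
    refine hlin _ ⟨fun z hz => ?_, fun z => ?_, hdelta _ (fun z hz => by simp [hΦ z hz])
      (fun z => mem_kline.mpr ⟨Φ z, rfl⟩) (mem_elation hSL P.v Φ (hΦ _ (self_mem_kline _))) t⟩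
    · have h1 : ψ z = 0 := by rw [hψ, LinearMap.comp_apply]; exact hχL _ (P.A_stab z hz)
      simp [hΦ z hz, h1]
    · simp only [LinearMap.sub_apply, LinearMap.smul_apply, LinearMap.smulRight_apply]
      exact L.sub_mem (L.smul_mem _ (L.sub_mem (L.smul_mem _ hdL) (L.smul_mem _ (smul_mem_kline (self_mem_kline _) _))))
        (L.smul_mem _ (L.smul_mem _ (L.smul_mem _ hdL)))
  have hk₀ : P.k₀ ≠ 0 := fun h => P.k₀_ne (by simp [h])
  obtain ⟨xψ, hxψ'⟩ := P.A_surj _ hk₀ u huU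
  have hxψ : ψ xψ = 1 := by rw [hψ, LinearMap.comp_apply, hA, hxψ', hχu]
  have huv : u ∉ (K ∙ P.v) := huL
  obtain ⟨e₀, he₀⟩ := mem_kline.mp P.x₀_mem
  obtain ⟨Φ₁, hΦ₁u, hΦ₁v⟩ := Submodule.exists_dual_map_eq_bot_of_notMem huv inferInstance
  set Φ := (e₀ * (Φ₁ u)⁻¹) • Φ₁ with hΦdef
  have hΦL : ∀ z ∈ L, Φ z = 0 := fun z hz => by
    have := (Submodule.eq_bot_iff _).mp hΦ₁v _ ⟨z, hz, rfl⟩
    simp [hΦdef, this]
  have hΦu : Φ u • P.v = P.x₀ := by
    show ((e₀ * (Φ₁ u)⁻¹) * Φ₁ u) • P.v = P.x₀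
    rw [mul_assoc, inv_mul_cancel₀ hΦ₁u, mul_one, he₀]
  by_cases hr3 : 3 ≤ r
  · exfalso
    have h1 := hDel Φ hΦL 1
    rw [hΦu] at h1
    set Z := (1 : F) • (rk1 (φ.comp ((Φ.smulRight P.v).restrictScalars F)) d - rk1 ψ P.x₀) -
        (1 : F) ^ 2 • (φ P.x₀ • rk1 ψ d) with hZ
    have hZx : Z xψ ≠ 0 := by
      intro h0
      simp only [hZ, one_pow, one_smul, LinearMap.sub_apply, LinearMap.smulRight_apply, hxψ, hφx] at h0
      apply P.x₀_not
      rw [sub_eq_zero] at h0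
      have h2 : P.x₀ = φ ((Φ xψ) • P.v) • d - d := by
        simp only [LinearMap.comp_apply, LinearMap.restrictScalars_apply, LinearMap.smulRight_apply] at h0
        rw [sub_eq_iff_eq_add] at h0
        rw [h0]; abel
      rw [h2]
      exact P.U.sub_mem (P.U.smul_mem _ hdU) hdU
    have h3 := hline Z h1 xψ hZx ((F ∙ d) ⊔ (F ∙ P.x₀)) fun z => by
      simp only [hZ, LinearMap.sub_apply, LinearMap.smul_apply, LinearMap.smulRight_apply, one_pow, one_smul]
      exact Submodule.sub_mem _ (Submodule.sub_mem _ (Submodule.mem_sup_left (Submodule.mem_span_singleton.mpr ⟨_, rfl⟩))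
        (Submodule.mem_sup_right (Submodule.mem_span_singleton.mpr ⟨_, rfl⟩)))
        (Submodule.smul_mem _ _ (Submodule.mem_sup_left (Submodule.mem_span_singleton.mpr ⟨_, rfl⟩)))
    have h4 := Submodule.finrank_add_le_finrank_add_finrank (F ∙ d) (F ∙ P.x₀)
    rw [finrank_span_singleton hd0,
      finrank_span_singleton (show P.x₀ ≠ 0 from fun h => P.x₀_not (h ▸ P.U.zero_mem))] at h4
    omega
  have hr2' : r = 2 := by omega
  by_cases hm : 3 ≤ finrank K V
  · exfalso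
    have hsne : Submodule.span K {P.v, u} ≠ ⊤ := fun h => by
      have h5 := finrank_span_finset_le_card (R := K) ({P.v, u} : Finset V)
      rw [Finset.coe_pair] at h5
      have h6 : Set.finrank K ({P.v, u} : Set V) = finrank K V := by rw [Set.finrank, h, finrank_top]
      have h7 : ({P.v, u} : Finset V).card ≤ 2 := Finset.card_le_two
      omega
    obtain ⟨z, -, hz⟩ := SetLike.exists_of_lt (lt_top_iff_ne_top.mpr hsne)
    obtain ⟨Ψ, hΨz, hΨ⟩ := Submodule.exists_dual_map_eq_bot_of_notMem hz inferInstance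
    have hΨk : ∀ y ∈ Submodule.span K {P.v, u}, Ψ y = 0 := fun y hy =>
      (Submodule.eq_bot_iff _).mp hΨ _ ⟨y, hy, rfl⟩
    set Φ' := (e₀ * (Ψ z)⁻¹) • Ψ with hΦ'
    have hΦ'L : ∀ w ∈ L, Φ' w = 0 := fun w hw => by
      obtain ⟨c, rfl⟩ := mem_kline.mp hw
      simp [hΦ', hΨk P.v (Submodule.subset_span (Set.mem_insert _ _))]
    have hΦ'u : Φ' u = 0 := by
      simp [hΦ', hΨk u (Submodule.subset_span (Set.mem_insert_of_mem _ rfl))]
    have h1 := hDel Φ' hΦ'L 1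
    rw [hΦ'u, zero_smul, map_zero] at h1
    set Z := (1 : F) • (rk1 (φ.comp ((Φ'.smulRight P.v).restrictScalars F)) d - rk1 ψ 0) -
        (1 : F) ^ 2 • ((0 : F) • rk1 ψ d) with hZ
    have hZv : ∀ w, Z w = φ (Φ' w • P.v) • d := fun w => by
      simp [hZ, LinearMap.smulRight_apply]
    have hZz : Z z ≠ 0 := by
      rw [hZv, show Φ' z = e₀ from by
        show (e₀ * (Ψ z)⁻¹) * Ψ z = e₀
        rw [mul_assoc, inv_mul_cancel₀ hΨz, mul_one], he₀, hφx, one_smul]
      exact hd0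
    have h3 := hline Z h1 z hZz (F ∙ d) fun w => by
      rw [hZv]; exact Submodule.mem_span_singleton.mpr ⟨_, rfl⟩
    rw [finrank_span_singleton hd0] at h3
    omega
  by_cases hF : ∀ t : F, t = 0 ∨ t = 1
  · exact hsmall hr2' (by omega) hF
  exfalso
  push Not at hF
  obtain ⟨t, ht0, ht1⟩ := hF
  set E := fun s : F => s • (rk1 (φ.comp ((Φ.smulRight P.v).restrictScalars F)) d - rk1 ψ P.x₀) -
      s ^ 2 • (φ P.x₀ • rk1 ψ d) with hE
  have hElin : ∀ s, ∀ (c : K) x, E s (c • x) = c • E s x := fun s => by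
    have := hDel Φ hΦL s
    rwa [hΦu] at this
  set Z := E t - t • E 1 with hZ
  have hZlin : ∀ (c : K) x, Z (c • x) = c • Z x := fun c x => by
    simp only [hZ, LinearMap.sub_apply, LinearMap.smul_apply, hElin, smul_sub, smul_comm t c]
  have hZv : ∀ w, Z w = ((t - t ^ 2) * ψ w) • d := fun w => by
    simp only [hZ, hE, LinearMap.sub_apply, LinearMap.smul_apply, LinearMap.smulRight_apply, hφx]
    module
  have hZx : Z xψ ≠ 0 := by
    rw [hZv, hxψ, mul_one]
    refine smul_ne_zero ?_ hd0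
    rw [show t - t ^ 2 = t * (1 - t) by ring]
    exact mul_ne_zero ht0 (sub_ne_zero.mpr (Ne.symm ht1))
  have h3 := hline Z hZlin xψ hZx (F ∙ d) fun w => by
    rw [hZv]; exact Submodule.mem_span_singleton.mpr ⟨_, rfl⟩
  rw [finrank_span_singleton hd0] at h3
  omega

end Cfsg.Agent.MaxSub.ExtField
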